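import Mathlib

/-!
Many classes of `SL_n(q)`: companion matrices and the identity.
-/

set_option autoImplicit false

namespace Cfsg.Agent.Spec.SLClass

open Polynomial

variable {F : Type*} [Field F] [Fintype F]

theorem exists_charpoly (f : F[X]) (hf : f.Monic) (n : ℕ) (hn : f.natDegree = n) :
    ∃ M : Matrix (Fin n) (Fin n) F, M.charpoly = f ∧ (2 ≤ n → M ≠ 1) := by
  subst hn
  let pb := AdjoinRoot.powerBasis hf.ne_zero
  have hmin : minpoly F pb.gen = f := by
    rw [AdjoinRoot.powerBasis_gen, AdjoinRoot.minpoly_root hf.ne_zero, hf.leadingCoeff, inv_one, map_one,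
      mul_one]
  have hd : pb.dim = f.natDegree := AdjoinRoot.powerBasis_dim hf.ne_zero
  refine ⟨(Algebra.leftMulMatrix pb.basis pb.gen).reindex (finCongr hd) (finCongr hd), ?_, fun h2 h => ?_⟩
  · rw [Matrix.charpoly_reindex, charpoly_leftMulMatrix, hmin]
  · have h1 : Algebra.leftMulMatrix pb.basis pb.gen = Algebra.leftMulMatrix pb.basis 1 := by
      rw [map_one]
      refine (Matrix.reindex (finCongr hd) (finCongr hd)).injective (h.trans ?_)
      simp
    haveI : Nontrivial (AdjoinRoot f) := AdjoinRoot.nontrivial f fun h0 => by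
      have : f.natDegree = 0 := natDegree_eq_of_degree_eq_some h0
      omega
    have h3 := Algebra.leftMulMatrix_injective pb.basis h1
    rw [h3, minpoly.one] at hmin
    rw [← hmin, ← C_1, natDegree_X_sub_C] at h2
    omega

theorem pow_lt_card_classes_SL (n : ℕ) (hn : 2 ≤ n) :
    Fintype.card F ^ (n - 1) < Nat.card (ConjClasses (Matrix.SpecialLinearGroup (Fin n) F)) := by
  classical
  obtain ⟨k, rfl⟩ : ∃ k, n = k + 2 := ⟨n - 2, by omega⟩
  let P : (Fin (k + 1) → F) → F[X] := fun c =>
    X ^ (k + 2) + ∑ i : Fin (k + 2), C ((Fin.cons ((-1 : F) ^ (k + 2)) c : Fin (k + 2) → F) i) * X ^ (i : ℕ)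
  have hmon : ∀ c, (P c).Monic := fun c => monic_X_pow_add (degree_sum_fin_lt _)
  have hdeg : ∀ c, (P c).natDegree = k + 2 := fun c => natDegree_eq_of_degree_eq_some (by
    rw [degree_add_eq_left_of_degree_lt (by rw [degree_X_pow]; exact degree_sum_fin_lt _), degree_X_pow])
  have hcoeff : ∀ c (j : Fin (k + 2)), (P c).coeff j = (Fin.cons ((-1 : F) ^ (k + 2)) c : Fin (k + 2) → F) j := by
    intro c j
    simp only [P]
    rw [coeff_add, coeff_X_pow, if_neg (by omega), zero_add, finsetSum_coeff,
      Finset.sum_eq_single j (fun b _ hb => by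
        rw [coeff_C_mul_X_pow, if_neg (fun h => hb (Fin.ext h.symm))]) (by simp), coeff_C_mul_X_pow, if_pos rfl]
  choose M hM hne using fun c => exists_charpoly (P c) (hmon c) (k + 2) (hdeg c)
  have hdet : ∀ c, (M c).det = 1 := fun c => by
    rw [Matrix.det_eq_sign_charpoly_coeff, hM, Fintype.card_fin]
    have := hcoeff c 0
    rw [Fin.val_zero, Fin.cons_zero] at this
    rw [this, ← mul_pow, neg_one_mul, neg_neg, one_pow]
  let N : (Fin (k + 1) → F) → Matrix.SpecialLinearGroup (Fin (k + 2)) F := fun c => ⟨M c, hdet c⟩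
  let φ : Option (Fin (k + 1) → F) → ConjClasses (Matrix.SpecialLinearGroup (Fin (k + 2)) F) := fun o =>
    ConjClasses.mk (o.elim 1 N)
  have hφ : Function.Injective φ := by
    have h1 : ∀ c, φ (some c) ≠ φ none := fun c h => by
      have h' := ConjClasses.mk_eq_mk_iff_isConj.1 h
      have h2 : N c = 1 := isConj_one_left.1 h'
      exact hne c (by omega) (congrArg Subtype.val h2)
    rintro (_ | c) (_ | c') h
    · rfl
    · exact absurd h.symm (h1 c')
    · exact absurd h (h1 c)
    · obtain ⟨g, hg⟩ := isConj_iff.1 (ConjClasses.mk_eq_mk_iff_isConj.1 h)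
      have hg' : g * N c * g⁻¹ = N c' := hg
      have h2 := congrArg Units.val (congrArg Matrix.SpecialLinearGroup.toGL hg')
      rw [map_mul, map_mul, map_inv, Units.val_mul, Units.val_mul, Matrix.coe_units_inv] at h2
      have h3 := Matrix.charpoly_units_conj (Matrix.SpecialLinearGroup.toGL g) (M c)
      have h4 : P c = P c' := by
        rw [← hM c, ← hM c', ← h3]
        exact congrArg Matrix.charpoly h2
      refine congrArg some (funext fun j => ?_)
      have := congrArg (fun p : F[X] => p.coeff (j.succ : ℕ)) h4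
      simpa only [hcoeff, Fin.cons_succ] using this
  refine lt_of_lt_of_le ?_ (Nat.card_le_card_of_injective φ hφ)
  rw [Nat.card_eq_fintype_card, Fintype.card_option, Fintype.card_fun, Fintype.card_fin]
  exact Nat.lt_succ_self _

end Cfsg.Agent.Spec.SLClass
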