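import Cfsg.Agent.Spec.SLClass.Arith

/-!
Upper bound for the number of classes of `SL_n(q)`.
-/

set_option autoImplicit false

namespace Cfsg.Agent.Spec.SLClass

open Polynomial GLClassCount Finset

variable {F : Type*} [Field F] [Fintype F]

local notation "q" => Fintype.card F

theorem card_tup_le_nb (m : ℕ) (hm : 1 ≤ m) (ρ : F) :
    Nat.card {u : Tup F m m // tupConst u = ρ} ≤ nb q m := by
  refine (Nat.le_div_iff_mul_le ?_).2 ?_
  · have := Fintype.one_lt_card (α := F); omega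
  · rw [mul_comm]; exact card_tupConst_le m hm ρ

theorem card_supp_nb_le (n d : ℕ) (hn : 1 ≤ n) (hd : d ∣ n) (δ : F) :
    Nat.card {f : Tup F n n // tupConst f = δ ∧ SuppDvd d f} ≤ d * nb q (n / d) := by
  obtain ⟨m, rfl⟩ := hd
  obtain ⟨hd0, hm⟩ : 0 < d ∧ 1 ≤ m := ⟨Nat.pos_of_ne_zero (by rintro rfl; simp at hn), Nat.pos_of_ne_zero (by rintro rfl; simp at hn)⟩
  rw [Nat.mul_div_cancel_left _ hd0]
  exact (card_supp_le d m hd0 δ (nb q m) fun ρ _ => card_tup_le_nb m hm ρ).trans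
    (Nat.mul_le_mul_right _ (card_nthRoots_le d hd0 δ))

theorem card_classes_SL_le_sum (n : ℕ) (hn : 1 ≤ n) :
    Nat.card (ConjClasses (Matrix.SpecialLinearGroup (Fin n) F)) ≤
      ∑ d ∈ (Nat.gcd n (q - 1)).divisors, Nat.totient d * (d * nb q (n / d)) := by
  classical
  haveI := fun J m => finite_tup (F := F) J m
  obtain ⟨E, T, hT, hc, hle⟩ := card_classes_SL_le (F := F) n
  refine hle.trans (Finset.sum_le_sum fun d hd => Nat.mul_le_mul_left _ ?_)
  have hdn : d ∣ n := (Nat.dvd_of_mem_divisors hd).trans (Nat.gcd_dvd_left _ _)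
  refine le_trans (Nat.card_le_card_of_injective
    (fun c : {c : ConjClasses (GL (Fin n) F) // (c.out : Matrix (Fin n) (Fin n) F).det = 1 ∧ d ∣ E c} =>
      (⟨T c.1, by rw [(hc c.1).2.1, c.2.1, mul_one], (hc c.1).2.2 d c.2.2⟩ :
        {f : Tup F n n // tupConst f = (-1) ^ n ∧ SuppDvd d f}))
    fun a b h => Subtype.ext (hT (congrArg Subtype.val h))) (card_supp_nb_le n d hn hdn _)

/-- The bound for the class number of `SL_n`. -/
def slBound (Q n : ℕ) : ℕ := ∑ d ∈ (Nat.gcd n (Q - 1)).divisors, Nat.totient d * (d * nb Q (n / d))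

theorem sum_divisors_le {g n : ℕ} (hg : g ∣ n) (hn : n ≠ 0) (f : ℕ → ℕ) :
    ∑ d ∈ g.divisors, f d ≤ ∑ d ∈ n.divisors, f d :=
  Finset.sum_le_sum_of_subset (Nat.divisors_subset_of_dvd hn hg)

theorem sl_two {Q : ℕ} (hQ : 2 ≤ Q) : slBound Q 2 ≤ Q + 4 ∧ (Q = 2 → slBound Q 2 ≤ 4) := by
  have hb := (nb_small hQ).1
  refine ⟨?_, fun h => ?_⟩
  · refine (sum_divisors_le (Nat.gcd_dvd_left _ _) (by omega) _).trans ?_
    rw [show Nat.divisors 2 = {1, 2} by decide, Finset.sum_pair (by omega)]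
    simp [Nat.totient_prime Nat.prime_two, nb_one hQ]
    omega
  · subst h
    rw [slBound, show Nat.gcd 2 (2 - 1) = 1 by rfl, Nat.divisors_one, Finset.sum_singleton]
    simpa using hb

theorem sl_big {Q : ℕ} (hQ : 3 ≤ Q) (k : ℕ) :
    ∀ g, g ∣ k + 7 → g ∣ Q - 1 → ∑ d ∈ g.divisors, Nat.totient d * (d * nb Q ((k + 7) / d)) ≤
      nb Q (k + 7) + g * g * (2 * Q ^ ((k + 7) / 2 - 1)) := by
  intro g hg hg'
  have hg0 : g ≠ 0 := by rintro rfl; rw [Nat.zero_dvd] at hg'; omega
  rw [← Finset.add_sum_erase _ _ (Nat.one_mem_divisors.2 hg0)]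
  refine add_le_add (by simp) ?_
  calc ∑ d ∈ g.divisors.erase 1, Nat.totient d * (d * nb Q ((k + 7) / d))
      ≤ ∑ d ∈ g.divisors.erase 1, Nat.totient d * (g * (2 * Q ^ ((k + 7) / 2 - 1))) := by
        refine Finset.sum_le_sum fun d hd => Nat.mul_le_mul_left _ (Nat.mul_le_mul ?_ ?_)
        · exact Nat.divisor_le (Finset.mem_of_mem_erase hd)
        · refine (nb_le_two_mul (by omega) _).trans (Nat.mul_le_mul_left _ (Nat.pow_le_pow_right (by omega) ?_))
          have h2 : 2 ≤ d := by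
            have := Nat.pos_of_mem_divisors (Finset.mem_of_mem_erase hd)
            have := Finset.ne_of_mem_erase hd
            omega
          have := Nat.div_le_div_left (a := k + 7) h2 (by omega)
          omega
    _ ≤ ∑ d ∈ g.divisors, Nat.totient d * (g * (2 * Q ^ ((k + 7) / 2 - 1))) :=
        Finset.sum_le_sum_of_subset (Finset.erase_subset _ _)
    _ = g * g * (2 * Q ^ ((k + 7) / 2 - 1)) := by rw [← Finset.sum_mul, Nat.sum_totient, mul_assoc]

theorem pow_growth {Q : ℕ} (hQ : 4 ≤ Q) : ∀ e, 10 * (e + 1) + 30 ≤ 12 * Q ^ (e + 1) := by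
  intro e
  induction e with
  | zero => simp; omega
  | succ e ih =>
    rw [pow_succ _ (e + 1)]
    nlinarith

theorem slBound_le {Q : ℕ} (hQ : 2 ≤ Q) (k : ℕ) :
    slBound Q (k + 3) ≤ Q ^ (k + 2) + 3 * Q ^ (k + 1) := by
  rcases (show Q = 2 ∨ 3 ≤ Q by omega) with rfl | h3
  · rw [slBound, Nat.gcd_one_right, Nat.divisors_one, Finset.sum_singleton]
    have := nb_two (k + 3)
    simp [pow_succ] at this ⊢
    omega
  have hsmall := nb_small hQ
  have h1 := nb_one hQ
  rcases (show k = 0 ∨ k = 1 ∨ k = 2 ∨ k = 3 ∨ 4 ≤ k by omega) with rfl | rfl | rfl | rfl | hk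
  · by_cases h : 3 ∣ Q - 1
    · have : 4 ≤ Q := by have := Nat.le_of_dvd (by omega) h; omega
      rw [slBound, Nat.gcd_eq_left h, show Nat.divisors 3 = {1, 3} by decide, Finset.sum_pair (by omega)]
      simp [Nat.totient_prime Nat.prime_three, h1]
      nlinarith
    · rw [slBound, show Nat.gcd (0 + 3) (Q - 1) = 1 from (Nat.Prime.coprime_iff_not_dvd Nat.prime_three).2 h,
        Nat.divisors_one, Finset.sum_singleton]
      simp
      nlinarith
  · rcases (show Q = 3 ∨ 4 ≤ Q by omega) with rfl | h4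
    · rw [slBound, show Nat.gcd (1 + 3) (3 - 1) = 2 by rfl, show Nat.divisors 2 = {1, 2} by decide,
        Finset.sum_pair (by omega)]
      have := hsmall.2.2.2 rfl
      have := hsmall.1
      simp [Nat.totient_prime Nat.prime_two]
      omega
    · refine (sum_divisors_le (Nat.gcd_dvd_left _ _) (by omega) _).trans ?_
      rw [show Nat.divisors (1 + 3) = {1, 2, 4} by decide, Finset.sum_insert (by simp),
        Finset.sum_pair (by omega)]
      simp [Nat.totient_prime Nat.prime_two, h1, show Nat.totient 4 = 2 by decide]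
      nlinarith
  · by_cases h : 5 ∣ Q - 1
    · rw [slBound, show Nat.gcd (2 + 3) (Q - 1) = 5 from Nat.gcd_eq_left h, show Nat.divisors 5 = {1, 5} by decide,
        Finset.sum_pair (by omega)]
      have hq : 6 ≤ Q := by have := Nat.le_of_dvd (by omega) h; omega
      have := nb_ge_four (by omega : 4 ≤ Q) 3
      have : 216 ≤ Q ^ 3 := le_trans (by norm_num : 216 ≤ 6 ^ 3) (Nat.pow_le_pow_left hq 3)
      simp [Nat.totient_prime (by norm_num : Nat.Prime 5), h1] at *
      omega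
    · rw [slBound, show Nat.gcd (2 + 3) (Q - 1) = 1 from (Nat.Prime.coprime_iff_not_dvd (by norm_num : Nat.Prime 5)).2 h,
        Nat.divisors_one, Finset.sum_singleton]
      simp
      rcases (show Q = 3 ∨ 4 ≤ Q by omega) with rfl | h4
      · have := nb_three 3; simp at this ⊢; omega
      · have := nb_ge_four h4 3
        have : 64 ≤ Q ^ 3 := le_trans (by norm_num : 64 ≤ 4 ^ 3) (Nat.pow_le_pow_left h4 3)
        simp at *
        omega
  · rcases (show Q = 3 ∨ 4 ≤ Q by omega) with rfl | h4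
    · rw [slBound, show Nat.gcd (3 + 3) (3 - 1) = 2 by rfl, show Nat.divisors 2 = {1, 2} by decide,
        Finset.sum_pair (by omega)]
      have := nb_three 4
      have := hsmall.2.1
      simp [Nat.totient_prime Nat.prime_two] at *
      omega
    · refine (sum_divisors_le (Nat.gcd_dvd_left _ _) (by omega) _).trans ?_
      rw [show Nat.divisors (3 + 3) = {1, 2, 3, 6} by decide, Finset.sum_insert (by simp), Finset.sum_insert (by simp),
        Finset.sum_pair (by omega)]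
      have h6 := nb_ge_four h4 4
      have h2 := hsmall.1
      have h33 := hsmall.2.1
      have a1 : 4 * Q ^ 3 ≤ Q ^ 4 := by rw [pow_succ' Q 3]; exact Nat.mul_le_mul_right _ h4
      have a2 : 4 * Q ^ 2 ≤ Q ^ 3 := by rw [pow_succ' Q 2]; exact Nat.mul_le_mul_right _ h4
      have a3 : 4 * Q ≤ Q ^ 2 := by rw [pow_two]; exact Nat.mul_le_mul_right _ h4
      simp [Nat.totient_prime Nat.prime_two, Nat.totient_prime Nat.prime_three,
        show Nat.totient 6 = 2 by decide, h1] at *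
      omega
  · obtain ⟨j, rfl⟩ : ∃ j, k = j + 4 := ⟨k - 4, by omega⟩
    refine (sl_big h3 j _ (Nat.gcd_dvd_left _ _) (Nat.gcd_dvd_right _ _)).trans ?_
    set g := Nat.gcd (j + 4 + 3) (Q - 1)
    have hgn : g ≤ j + 7 := Nat.le_of_dvd (by omega) (Nat.gcd_dvd_left _ _)
    have hgq : g ≤ Q - 1 := Nat.le_of_dvd (by omega) (Nat.gcd_dvd_right _ _)
    have he : Q * Q ^ ((j + 7) / 2 - 1) * (Q ^ (j + 1 - ((j + 7) / 2 - 3))) = Q ^ (j + 4) := by
      rw [← pow_succ', ← pow_add]
      congr 1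
      omega
    have hexp : (j + 7) / 2 - 3 ≤ (j + 1) / 2 := by omega
    rcases (show Q = 3 ∨ 4 ≤ Q by omega) with rfl | h4
    · have hn := nb_three (j + 5)
      have hgg : g * g ≤ 4 := Nat.mul_le_mul (by omega : g ≤ 2) (by omega : g ≤ 2)
      have hle : 3 * 3 ^ ((j + 7) / 2 - 1) ≤ 3 ^ (j + 3) := by
        rw [← pow_succ']
        exact Nat.pow_le_pow_right (by omega) (by omega)
      have hk1 : 27 ≤ 3 ^ (j + 3) := le_trans (by norm_num : 27 ≤ 3 ^ 3) (Nat.pow_le_pow_right (by omega) (by omega))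
      have := Nat.mul_le_mul hgg (le_refl (2 * 3 ^ ((j + 7) / 2 - 1)))
      simp only [show j + 4 + 3 = j + 5 + 2 by omega, show j + 4 + 2 = j + 5 + 1 by omega,
        show j + 4 + 1 = j + 5 by omega] at *
      simp only [pow_succ] at hn hle hk1 ⊢
      omega
    · have hn := nb_ge_four h4 (j + 5)
      have hgg : g * g ≤ (j + 7) * (Q - 1) := Nat.mul_le_mul hgn hgq
      have hmain : 20 * (g * g * Q ^ ((j + 7) / 2 - 1)) ≤ 9 * Q ^ (j + 5) := by
        obtain ⟨e, he1⟩ : ∃ e, j + 1 - (j + 1) / 2 = e + 1 := ⟨j - (j + 1) / 2, by omega⟩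
        have h5 : Q ^ ((j + 7) / 2 - 1) * Q ^ (e + 1 + 2) = Q ^ (j + 5) := by
          rw [← pow_add]
          congr 1
          omega
        rw [← h5, pow_add]
        have h6 : 5 * (j + 7) ≤ 12 * Q ^ (e + 1) := le_trans (by omega) (pow_growth h4 e)
        have h7 : 16 * (Q - 1) ≤ 3 * Q ^ 2 := by
          obtain ⟨P, rfl⟩ : ∃ P, Q = P + 4 := ⟨Q - 4, by omega⟩
          rw [show P + 4 - 1 = P + 3 by omega]
          nlinarith
        refine Nat.le_of_mul_le_mul_left ?_ (show 0 < 3 by norm_num)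
        calc 3 * (20 * (g * g * Q ^ ((j + 7) / 2 - 1))) ≤ 3 * (20 * ((j + 7) * (Q - 1) * Q ^ ((j + 7) / 2 - 1))) :=
              Nat.mul_le_mul_left _ (Nat.mul_le_mul_left _ (Nat.mul_le_mul_right _ hgg))
          _ = 12 * (5 * (j + 7)) * ((Q - 1) * Q ^ ((j + 7) / 2 - 1)) := by ring
          _ ≤ 12 * (12 * Q ^ (e + 1)) * ((Q - 1) * Q ^ ((j + 7) / 2 - 1)) :=
              Nat.mul_le_mul_right _ (Nat.mul_le_mul_left _ h6)
          _ = 9 * Q ^ (e + 1) * Q ^ ((j + 7) / 2 - 1) * (16 * (Q - 1)) := by ring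
          _ ≤ 9 * Q ^ (e + 1) * Q ^ ((j + 7) / 2 - 1) * (3 * Q ^ 2) := Nat.mul_le_mul_left _ h7
          _ = _ := by ring
      have hj : j + 7 ≤ 2 * Q ^ (j + 2) := by
        have := pow_growth h4 (j + 1)
        rw [show j + 1 + 1 = j + 2 by omega] at this
        omega
      have hbig : 10 * (2 * Q ^ (j + 2)) ≤ 2 * Q ^ (j + 5) := by
        rw [show Q ^ (j + 5) = Q ^ (j + 2) * Q ^ 3 from pow_add Q (j + 2) 3]
        have : 64 ≤ Q ^ 3 := le_trans (by norm_num : 64 ≤ 4 ^ 3) (Nat.pow_le_pow_left h4 3)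
        nlinarith
      rw [mul_left_comm (g * g) 2]
      simp only [show j + 4 + 3 = j + 7 by omega, show j + 4 + 2 = j + 6 by omega,
        show j + 4 + 1 = j + 5 by omega, show j + 5 + 2 = j + 7 by omega, show j + 5 + 1 = j + 6 by omega] at *
      omega

theorem card_classes_SL_bound (n : ℕ) (hn : 3 ≤ n) :
    Nat.card (ConjClasses (Matrix.SpecialLinearGroup (Fin n) F)) ≤ q ^ (n - 1) + 3 * q ^ (n - 2) := by
  obtain ⟨k, rfl⟩ : ∃ k, n = k + 3 := ⟨n - 3, by omega⟩
  exact (card_classes_SL_le_sum _ (by omega)).trans (slBound_le Fintype.one_lt_card k)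

theorem card_classes_SL_two :
    Nat.card (ConjClasses (Matrix.SpecialLinearGroup (Fin 2) F)) ≤ q + 4 ∧
      (q = 2 → Nat.card (ConjClasses (Matrix.SpecialLinearGroup (Fin 2) F)) ≤ 4) :=
  ⟨(card_classes_SL_le_sum _ (by omega)).trans (sl_two Fintype.one_lt_card).1,
    fun h => (card_classes_SL_le_sum _ (by omega)).trans ((sl_two Fintype.one_lt_card).2 h)⟩

end Cfsg.Agent.Spec.SLClass
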