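import Cfsg.Agent.Spec.SLClass.Data

/-!
Elementary divisors of a matrix similar to one of its scalar multiples.
-/

set_option autoImplicit false

namespace Cfsg.Agent.Spec.SLClass

open Polynomial Module GLClassCount

universe u

variable {F : Type u} [Field F]

/-- The substitution `X ↦ z X`, made monic. -/
noncomputable def twist (z : Fˣ) (f : F[X]) : F[X] :=
  C ((z : F) ^ f.natDegree)⁻¹ * f.comp (C (z : F) * X)

theorem natDegree_C_mul_X' (z : Fˣ) : (C (z : F) * X : F[X]).natDegree = 1 := natDegree_C_mul_X _ z.ne_zero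

theorem natDegree_twist (z : Fˣ) (f : F[X]) : (twist z f).natDegree = f.natDegree := by
  rw [twist, natDegree_C_mul (by simp), natDegree_comp, natDegree_C_mul_X', mul_one]

theorem twist_twist (z : Fˣ) (f : F[X]) : twist z⁻¹ (twist z f) = f := by
  conv_lhs => rw [twist, natDegree_twist, twist, mul_comp, C_comp, comp_assoc, mul_comp, C_comp, X_comp,
    ← mul_assoc, ← mul_assoc, ← C_mul, ← C_mul]
  simp

theorem twist_irreducible_monic (z : Fˣ) {f : F[X]} (hf : Irreducible f ∧ f.Monic) :
    Irreducible (twist z f) ∧ (twist z f).Monic := by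
  haveI : Invertible (z : F) := invertibleOfNonzero z.ne_zero
  constructor
  · have h := (MulEquiv.irreducible_iff (algEquivCMulXAddC (z : F) 0)).2 hf.1
    rw [algEquivCMulXAddC_apply, map_zero, add_zero, ← comp_eq_aeval] at h
    rw [twist]
    exact (irreducible_isUnit_mul (isUnit_C.2 (IsUnit.mk0 _ (by simp)))).2 h
  · rw [twist, Monic, leadingCoeff_mul, leadingCoeff_C, leadingCoeff_comp (by rw [natDegree_C_mul_X']; simp),
      leadingCoeff_C_mul_X, hf.2.leadingCoeff, one_mul, inv_mul_cancel₀ (by simp)]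

variable [Fintype F]

theorem card_quot_pow {P : F[X]} (hP : P.Monic) (m : ℕ) :
    Nat.card (F[X] ⧸ Ideal.span {P ^ m}) = Fintype.card F ^ (P.natDegree * m) := by
  haveI := (hP.pow m).finite_quotient
  rw [Module.natCard_eq_pow_finrank (K := F), finrank_quotient_span_eq_natDegree, natDegree_pow,
    Nat.card_eq_fintype_card, mul_comm]

theorem card_ker_same {P : F[X]} (hP : Irreducible P) (hm : P.Monic) (e k : ℕ) :
    Nat.card {a : F[X] ⧸ Ideal.span {P ^ e} // (P ^ k : F[X]) • a = 0} =
      Fintype.card F ^ (P.natDegree * min k e) := by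
  rcases le_or_gt e k with h | h
  · rw [min_eq_right h, ← card_quot_pow hm e]
    refine Nat.card_congr (Equiv.subtypeUnivEquiv fun a => ?_)
    obtain ⟨a, rfl⟩ := Ideal.Quotient.mk_surjective a
    show Ideal.Quotient.mk (Ideal.span {P ^ e}) (P ^ k * a) = 0
    rw [Ideal.Quotient.eq_zero_iff_mem, Ideal.mem_span_singleton]
    exact (pow_dvd_pow P h).mul_right a
  · rw [min_eq_left h.le, ← card_quot_pow hm k]
    obtain ⟨r, rfl⟩ : ∃ r, e = r + k := ⟨e - k, by omega⟩
    let L : (F[X] ⧸ Ideal.span {P ^ k}) →ₗ[F[X]] F[X] ⧸ Ideal.span {P ^ (r + k)} :=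
      Submodule.liftQ (Ideal.span {P ^ k})
        ((Submodule.mkQ (Ideal.span {P ^ (r + k)})).comp (LinearMap.mulLeft F[X] (P ^ r))) (by
        intro a ha
        rw [LinearMap.mem_ker]
        show Ideal.Quotient.mk (Ideal.span {P ^ (r + k)}) (P ^ r * a) = 0
        rw [Ideal.Quotient.eq_zero_iff_mem, Ideal.mem_span_singleton, pow_add]
        exact mul_dvd_mul_left _ (Ideal.mem_span_singleton.1 ha))
    have hL : ∀ a : F[X], L (Ideal.Quotient.mk _ a) = Ideal.Quotient.mk _ (P ^ r * a) := fun a => rfl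
    have hker : ∀ v, (P ^ k : F[X]) • L v = 0 := fun v => by
      obtain ⟨a, rfl⟩ := Ideal.Quotient.mk_surjective v
      rw [hL]
      show Ideal.Quotient.mk (Ideal.span {P ^ (r + k)}) (P ^ k * (P ^ r * a)) = 0
      rw [Ideal.Quotient.eq_zero_iff_mem, Ideal.mem_span_singleton, pow_add, ← mul_assoc, mul_comm (P ^ k) (P ^ r)]
      exact dvd_mul_right _ _
    refine (Nat.card_congr (Equiv.ofBijective
      (fun v => (⟨L v, hker v⟩ : {a : F[X] ⧸ Ideal.span {P ^ (r + k)} // (P ^ k : F[X]) • a = 0}))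
      ⟨fun v w hvw => ?_, fun a => ?_⟩)).symm
    · have h0 : L (v - w) = 0 := by rw [map_sub, sub_eq_zero]; exact congrArg Subtype.val hvw
      rw [← sub_eq_zero]
      obtain ⟨a, ha⟩ := Ideal.Quotient.mk_surjective (v - w)
      rw [← ha, hL, Ideal.Quotient.eq_zero_iff_mem, Ideal.mem_span_singleton, pow_add,
        mul_dvd_mul_iff_left (pow_ne_zero _ hP.ne_zero)] at h0
      rw [← ha, Ideal.Quotient.eq_zero_iff_mem, Ideal.mem_span_singleton]
      exact h0
    · obtain ⟨a, ha0⟩ := a
      obtain ⟨a, rfl⟩ := Ideal.Quotient.mk_surjective a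
      change Ideal.Quotient.mk (Ideal.span {P ^ (r + k)}) (P ^ k * a) = 0 at ha0
      rw [Ideal.Quotient.eq_zero_iff_mem, Ideal.mem_span_singleton, add_comm r k, pow_add,
        mul_dvd_mul_iff_left (pow_ne_zero _ hP.ne_zero)] at ha0
      obtain ⟨b, rfl⟩ := ha0
      exact ⟨Ideal.Quotient.mk _ b, Subtype.ext (hL b)⟩

theorem card_ker_other {P Q : F[X]} (hP : Irreducible P ∧ P.Monic) (hQ : Irreducible Q ∧ Q.Monic)
    (hne : P ≠ Q) (e k : ℕ) :
    Nat.card {a : F[X] ⧸ Ideal.span {P ^ e} // (Q ^ k : F[X]) • a = 0} = 1 := by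
  have hcop : IsCoprime (P ^ e) (Q ^ k) := IsCoprime.pow (hP.1.coprime_iff_not_dvd.2 fun hd =>
    hne (eq_of_monic_of_associated hP.2 hQ.2 (hP.1.associated_of_dvd hQ.1 hd)))
  have hz : ∀ a : {a : F[X] ⧸ Ideal.span {P ^ e} // (Q ^ k : F[X]) • a = 0}, a.1 = 0 := by
    rintro ⟨a, ha⟩
    obtain ⟨a, rfl⟩ := Ideal.Quotient.mk_surjective a
    change Ideal.Quotient.mk (Ideal.span {P ^ e}) (Q ^ k * a) = 0 at ha
    rw [Ideal.Quotient.eq_zero_iff_mem, Ideal.mem_span_singleton] at ha
    show Ideal.Quotient.mk (Ideal.span {P ^ e}) a = 0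
    rw [Ideal.Quotient.eq_zero_iff_mem, Ideal.mem_span_singleton]
    exact hcop.dvd_of_dvd_mul_left ha
  haveI : Subsingleton {a : F[X] ⧸ Ideal.span {P ^ e} // (Q ^ k : F[X]) • a = 0} :=
    ⟨fun a b => Subtype.ext ((hz a).trans (hz b).symm)⟩
  exact Nat.card_of_subsingleton ⟨0, smul_zero _⟩

theorem card_ker_eq {n : ℕ} (A : Matrix (Fin n) (Fin n) F) {ι : Type u} [Fintype ι] (P : ι → F[X]) (e : ι → ℕ)
    (hP : ∀ i, Irreducible (P i) ∧ (P i).Monic)
    (Φ : AEval' (Matrix.toLin' A) ≃ₗ[F[X]] Π i, F[X] ⧸ Ideal.span {P i ^ e i})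
    (Q : F[X]) (hQ : Irreducible Q ∧ Q.Monic) (k : ℕ) [DecidablePred fun i => P i = Q] :
    Nat.card {v : Fin n → F // aeval (Matrix.toLin' A) (Q ^ k) v = 0} =
      Fintype.card F ^ (Q.natDegree * ∑ i ∈ Finset.univ.filter (fun i => P i = Q), min k (e i)) := by
  let E : (Fin n → F) ≃ Π i, F[X] ⧸ Ideal.span {P i ^ e i} :=
    (AEval'.of (Matrix.toLin' A)).toEquiv.trans Φ.toEquiv
  have hiff : ∀ v, aeval (Matrix.toLin' A) (Q ^ k) v = 0 ↔ ∀ i, (Q ^ k : F[X]) • E v i = 0 := fun v => by
    have h1 : (Q ^ k : F[X]) • AEval'.of (Matrix.toLin' A) v =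
        AEval'.of (Matrix.toLin' A) (aeval (Matrix.toLin' A) (Q ^ k) v) := (AEval.of_aeval_smul _ _ v).symm
    show _ ↔ ∀ i, (Q ^ k : F[X]) • Φ (AEval'.of (Matrix.toLin' A) v) i = 0
    rw [← LinearEquiv.map_eq_zero_iff (AEval'.of (Matrix.toLin' A)), ← h1, ← LinearEquiv.map_eq_zero_iff Φ,
      map_smul, funext_iff]
    rfl
  rw [Nat.card_congr ((E.subtypeEquiv hiff).trans
      (Equiv.subtypePiEquivPi (p := fun {i} (a : F[X] ⧸ Ideal.span {P i ^ e i}) => (Q ^ k : F[X]) • a = 0))),
    Nat.card_pi, Finset.mul_sum, ← Finset.prod_pow_eq_pow_sum, Finset.prod_filter]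
  refine Finset.prod_congr rfl fun i _ => ?_
  by_cases h : P i = Q
  · rw [if_pos h, ← h]
    exact card_ker_same (hP i).1 (hP i).2 _ _
  · rw [if_neg h]
    exact card_ker_other (hP i) hQ h _ _

theorem aeval_comp_scalar {n : ℕ} (A : Matrix (Fin n) (Fin n) F) (z : Fˣ) (f : F[X]) :
    aeval (Matrix.toLin' A) (twist z f) =
      ((z : F) ^ f.natDegree)⁻¹ • aeval (Matrix.toLin' ((z : F) • A)) f := by
  rw [twist, map_mul, aeval_C, aeval_comp, map_mul, aeval_C, aeval_X, map_smul, Algebra.smul_def,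
    Algebra.smul_def]

/-- The number of elementary divisors equal to a given prime power is invariant under twisting. -/
theorem card_fibre_twist {n : ℕ} (A : Matrix (Fin n) (Fin n) F) {ι : Type u} [Fintype ι] (P : ι → F[X])
    (e : ι → ℕ) (hP : ∀ i, Irreducible (P i) ∧ (P i).Monic)
    (Φ : AEval' (Matrix.toLin' A) ≃ₗ[F[X]] Π i, F[X] ⧸ Ideal.span {P i ^ e i})
    (z : Fˣ) (S : GL (Fin n) F) (hS : (S : Matrix (Fin n) (Fin n) F) * A = ((z : F) • A) * S)
    (j : ℕ) (hj : 1 ≤ j) (Q : F[X]) :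
    Nat.card {i // P i = twist z Q ∧ e i = j} = Nat.card {i // P i = Q ∧ e i = j} := by
  classical
  by_cases hQ : Irreducible Q ∧ Q.Monic
  swap
  · haveI : IsEmpty {i // P i = Q ∧ e i = j} := ⟨fun i => hQ (i.2.1 ▸ hP i.1)⟩
    haveI : IsEmpty {i // P i = twist z Q ∧ e i = j} := ⟨fun i => hQ (by
      rw [← twist_twist z Q]
      exact twist_irreducible_monic _ (i.2.1 ▸ hP i.1))⟩
    rw [Nat.card_of_isEmpty, Nat.card_of_isEmpty]
  rw [Nat.card_eq_fintype_card, Nat.card_eq_fintype_card, Fintype.card_subtype, Fintype.card_subtype]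
  have hQ' := twist_irreducible_monic z hQ
  have hsum : ∀ k, ∑ i ∈ Finset.univ.filter (fun i => P i = twist z Q), min k (e i) =
      ∑ i ∈ Finset.univ.filter (fun i => P i = Q), min k (e i) := by
    intro k
    have h1 := card_ker_eq A P e hP Φ (twist z Q) hQ' k
    have h2 := card_ker_eq A P e hP Φ Q hQ k
    rw [natDegree_twist] at h1
    have hconj : ∀ f : F[X], aeval (Matrix.toLin' ((z : F) • A)) f ∘ₗ Matrix.toLin' (S : Matrix (Fin n) (Fin n) F) =
        Matrix.toLin' (S : Matrix (Fin n) (Fin n) F) ∘ₗ aeval (Matrix.toLin' A) f := by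
      have hb : Matrix.toLin' (S : Matrix (Fin n) (Fin n) F) ∘ₗ Matrix.toLin' A =
          Matrix.toLin' ((z : F) • A) ∘ₗ Matrix.toLin' (S : Matrix (Fin n) (Fin n) F) := by
        rw [← Matrix.toLin'_mul, ← Matrix.toLin'_mul, hS]
      intro f
      induction f using Polynomial.induction_on' with
      | add a b ha hb' => rw [map_add, map_add, LinearMap.add_comp, LinearMap.comp_add, ha, hb']
      | monomial m c =>
        rw [aeval_monomial, aeval_monomial, ← Algebra.smul_def, ← Algebra.smul_def, LinearMap.smul_comp,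
          LinearMap.comp_smul]
        congr 1
        induction m with
        | zero => rfl
        | succ m ih =>
          rw [pow_succ, pow_succ, Module.End.mul_eq_comp, Module.End.mul_eq_comp, LinearMap.comp_assoc,
            ← hb, ← LinearMap.comp_assoc, ih, LinearMap.comp_assoc]
    have heq : ∀ v, aeval (Matrix.toLin' A) ((twist z Q) ^ k) v = 0 ↔
        aeval (Matrix.toLin' ((z : F) • A)) (Q ^ k) v = 0 := fun v => by
      rw [map_pow, aeval_comp_scalar, _root_.smul_pow, LinearMap.smul_apply, map_pow,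
        smul_eq_zero_iff_right (by simp)]
    let T : (Fin n → F) ≃ (Fin n → F) :=
      { toFun := Matrix.toLin' (S : Matrix (Fin n) (Fin n) F)
        invFun := Matrix.toLin' ((S⁻¹ : GL (Fin n) F) : Matrix (Fin n) (Fin n) F)
        left_inv := fun v => by
          rw [← LinearMap.comp_apply, ← Matrix.toLin'_mul, ← Units.val_mul, inv_mul_cancel,
            Units.val_one, Matrix.toLin'_one, LinearMap.id_apply]
        right_inv := fun v => by
          rw [← LinearMap.comp_apply, ← Matrix.toLin'_mul, ← Units.val_mul, mul_inv_cancel,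
            Units.val_one, Matrix.toLin'_one, LinearMap.id_apply] }
    have h3 : Nat.card {v : Fin n → F // aeval (Matrix.toLin' A) (Q ^ k) v = 0} =
        Nat.card {v : Fin n → F // aeval (Matrix.toLin' A) ((twist z Q) ^ k) v = 0} := by
      refine Nat.card_congr (T.subtypeEquiv fun v => ?_)
      rw [heq]
      show _ ↔ (aeval (Matrix.toLin' ((z : F) • A)) (Q ^ k) ∘ₗ Matrix.toLin' (S : Matrix (Fin n) (Fin n) F)) v = 0
      rw [hconj]
      refine ⟨fun h => by rw [LinearMap.comp_apply, h, map_zero], fun h => ?_⟩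
      exact T.injective (h.trans (LinearMap.map_zero (Matrix.toLin' (S : Matrix (Fin n) (Fin n) F))).symm)
    rw [h1, h2] at h3
    exact (Nat.eq_of_mul_eq_mul_left hQ.1.natDegree_pos (Nat.pow_right_injective Fintype.one_lt_card h3)).symm
  have hid : ∀ Q' : F[X], (Finset.univ.filter fun i => P i = Q' ∧ e i = j).card +
      (∑ i ∈ Finset.univ.filter (fun i => P i = Q'), min (j - 1) (e i) +
        ∑ i ∈ Finset.univ.filter (fun i => P i = Q'), min (j + 1) (e i)) =
      2 * ∑ i ∈ Finset.univ.filter (fun i => P i = Q'), min j (e i) := by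
    intro Q'
    rw [Finset.mul_sum, Finset.card_eq_sum_ones, Finset.sum_filter, Finset.sum_filter, Finset.sum_filter,
      Finset.sum_filter, ← Finset.sum_add_distrib, ← Finset.sum_add_distrib]
    refine Finset.sum_congr rfl fun i _ => ?_
    by_cases h : P i = Q'
    · simp only [h, true_and, if_true]
      split_ifs with h' <;> omega
    · simp [h]
  have e1 := hid (twist z Q)
  have e2 := hid Q
  rw [hsum, hsum, hsum] at e1
  omega

/-- The products of the elementary divisors of given exponent are invariant under twisting. -/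
theorem prod_fibre_comp {n : ℕ} (A : Matrix (Fin n) (Fin n) F) {ι : Type u} [Fintype ι] (P : ι → F[X])
    (e : ι → ℕ) (hP : ∀ i, Irreducible (P i) ∧ (P i).Monic)
    (Φ : AEval' (Matrix.toLin' A) ≃ₗ[F[X]] Π i, F[X] ⧸ Ideal.span {P i ^ e i})
    (z : Fˣ) (S : GL (Fin n) F) (hS : (S : Matrix (Fin n) (Fin n) F) * A = ((z : F) • A) * S)
    (j : ℕ) (hj : 1 ≤ j) [DecidablePred fun i => e i = j] :
    (∏ i ∈ Finset.univ.filter (fun i => e i = j), P i).comp (C (z : F) * X) =
      C ((z : F) ^ (∏ i ∈ Finset.univ.filter (fun i => e i = j), P i).natDegree) *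
        ∏ i ∈ Finset.univ.filter (fun i => e i = j), P i := by
  classical
  set s := Finset.univ.filter (fun i => e i = j)
  have hms : (s.val.map P).map (twist z) = s.val.map P := by
    refine Multiset.ext.2 fun R => ?_
    obtain ⟨Q, rfl⟩ : ∃ Q, twist z Q = R := ⟨twist z⁻¹ R, by have := twist_twist z⁻¹ R; rwa [inv_inv] at this⟩
    rw [Multiset.count_map_eq_count' _ _ (Function.LeftInverse.injective (twist_twist z)),
      Multiset.count_map, Multiset.count_map, ← Finset.filter_val, ← Finset.filter_val, ← Finset.card_def,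
      ← Finset.card_def, Finset.filter_filter, Finset.filter_filter]
    have h := card_fibre_twist A P e hP Φ z S hS j hj Q
    rw [Nat.card_eq_fintype_card, Nat.card_eq_fintype_card, Fintype.card_subtype, Fintype.card_subtype] at h
    refine Eq.trans ?_ (h.symm.trans ?_) <;> congr 1 <;> ext i <;> simp <;> tauto
  have hprod : ∏ i ∈ s, twist z (P i) = ∏ i ∈ s, P i := by
    rw [Finset.prod_eq_multiset_prod, Finset.prod_eq_multiset_prod, ← Function.comp_def (twist z) P,
      ← Multiset.map_map, hms]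
  rw [prod_comp, natDegree_prod_of_monic _ _ fun i _ => (hP i).2, ← Finset.prod_pow_eq_pow_sum, map_prod]
  conv_rhs => rw [← hprod, ← Finset.prod_mul_distrib]
  refine Finset.prod_congr rfl fun i _ => ?_
  rw [twist, ← mul_assoc, ← C_mul, mul_inv_cancel₀ (by simp), C_1, one_mul]

/-- A polynomial invariant under a twist by an element of order `k` is a polynomial in `X ^ k`. -/
theorem exists_expand (z : Fˣ) {f : F[X]} (h0 : f.coeff 0 ≠ 0)
    (h : f.comp (C (z : F) * X) = C ((z : F) ^ f.natDegree) * f) :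
    orderOf z ∣ f.natDegree ∧ expand F (orderOf z) (contract (orderOf z) f) = f := by
  have hc : ∀ i, f.coeff i ≠ 0 → (z : F) ^ i = (z : F) ^ f.natDegree := fun i hi => by
    have := congrArg (fun p : F[X] => p.coeff i) h
    simp only [comp_C_mul_X_coeff, coeff_C_mul] at this
    rw [mul_comm] at this
    exact mul_right_cancel₀ hi this
  have hd : orderOf z ∣ f.natDegree := by
    rw [orderOf_dvd_iff_pow_eq_one]
    refine Units.ext ?_
    rw [Units.val_pow_eq_pow_val, ← hc 0 h0, pow_zero, Units.val_one]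
  refine ⟨hd, Polynomial.ext fun i => ?_⟩
  have hpos : 0 < orderOf z := orderOf_pos z
  rw [coeff_expand hpos]
  split_ifs with hdiv
  · rw [coeff_contract hpos.ne', Nat.div_mul_cancel hdiv]
  · by_contra hne
    refine hdiv ?_
    rw [orderOf_dvd_iff_pow_eq_one]
    refine Units.ext ?_
    rw [Units.val_pow_eq_pow_val, hc i (Ne.symm hne), ← Units.val_pow_eq_pow_val,
      orderOf_dvd_iff_pow_eq_one.1 hd]

end Cfsg.Agent.Spec.SLClass
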