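import Cfsg.Agent.Spec.SLClass.Upper
import Cfsg.Agent.Spec.SLClass.Inv
import Cfsg.Agent.Linear.Orders

/-!
Classes of `PSL_n(q)` as orbits of the centre on classes of `SL_n(q)`.
-/

set_option autoImplicit false

namespace Cfsg.Agent.Spec.SLClass

open Polynomial GLClassCount Finset

universe u

variable {F : Type u} [Field F] [Fintype F]

local notation "q" => Fintype.card F

/-- Tuples in `X ^ k` with all supports divisible by `d`. -/
theorem card_expand_le (n d k : ℕ) (hn : 1 ≤ n) (hk : 0 < k) (δ : F) :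
    Nat.card {f : Tup F n n // (tupConst f = δ ∧ SuppDvd d f) ∧
        ∀ j, k ∣ (f.1 j).1.natDegree ∧ expand F k (contract k (f.1 j).1) = (f.1 j).1} ≤
      if d * k ∣ n then d * nb q (n / k / d) else 0 := by
  classical
  haveI := fun J m => finite_tup (F := F) J m
  split_ifs with hdiv
  swap
  · haveI : IsEmpty {f : Tup F n n // (tupConst f = δ ∧ SuppDvd d f) ∧
        ∀ j, k ∣ (f.1 j).1.natDegree ∧ expand F k (contract k (f.1 j).1) = (f.1 j).1} := ⟨fun f => hdiv (by
      refine Nat.dvd_trans ?_ (dvd_of_eq f.1.2)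
      refine Finset.dvd_sum fun j _ => ?_
      by_cases h : (f.1.1 j).1 = 1
      · rw [h, natDegree_one, mul_zero]; exact dvd_zero _
      · exact Nat.mul_dvd_mul (f.2.1.2 j h) (f.2.2 j).1)⟩
    simp
  obtain ⟨m, rfl⟩ : k ∣ n := (dvd_mul_left k d).trans hdiv
  have hm : 1 ≤ m := Nat.pos_of_ne_zero (by rintro rfl; simp at hn)
  rw [Nat.mul_div_cancel_left _ hk]
  have hdm : d ∣ m := Nat.dvd_of_mul_dvd_mul_left hk (by rwa [mul_comm d k] at hdiv)
  refine le_trans ?_ (card_supp_nb_le m d hm hdm δ)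
  let X := {f : Tup F (k * m) (k * m) // (tupConst f = δ ∧ SuppDvd d f) ∧
        ∀ j, k ∣ (f.1 j).1.natDegree ∧ expand F k (contract k (f.1 j).1) = (f.1 j).1}
  have hle : m ≤ k * m := Nat.le_mul_of_pos_left m hk
  let ι : Fin m → Fin (k * m) := Fin.castLE hle
  have hbig : ∀ (f : X) (j : Fin (k * m)), j ∉ Set.range ι → (f.1.1 j).1 = 1 := by
    intro f j hj
    by_contra h
    refine hj ⟨⟨j, ?_⟩, Fin.ext rfl⟩
    have h1 := Finset.single_le_sum (f := fun i : Fin (k * m) => ((i : ℕ) + 1) * (f.1.1 i).1.natDegree)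
      (fun _ _ => Nat.zero_le _) (Finset.mem_univ j)
    rw [f.1.2] at h1
    obtain ⟨t, ht⟩ := (f.2.2 j).1
    have ht0 : 1 ≤ t := by
      refine Nat.pos_of_ne_zero fun h0 => h ((goodPoly_eq_one_iff _).2 ?_)
      rw [ht, h0, mul_zero]
    rw [ht, mul_left_comm] at h1
    have h2 := Nat.le_of_mul_le_mul_left h1 hk
    have h3 : ((j : ℕ) + 1) * 1 ≤ ((j : ℕ) + 1) * t := Nat.mul_le_mul_left _ ht0
    omega
  let g : X → Fin m → GoodPoly F := fun f i => ⟨contract k (f.1.1 (ι i)).1, by
      have := (f.1.1 (ι i)).2.1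
      rwa [← (f.2.2 (ι i)).2, monic_expand_iff hk] at this, by
      rw [coeff_contract hk.ne', zero_mul]
      exact (f.1.1 (ι i)).2.2⟩
  have hgdeg : ∀ f i, (g f i).1.natDegree * k = (f.1.1 (ι i)).1.natDegree := fun f i => by
    conv_rhs => rw [← (f.2.2 (ι i)).2, natDegree_expand]
  let K : X → {f : Tup F m m // tupConst f = δ ∧ SuppDvd d f} := fun f =>
    ⟨⟨g f, by
      refine Nat.eq_of_mul_eq_mul_left hk (Eq.trans ?_ f.1.2)
      rw [Finset.mul_sum]
      refine Fintype.sum_of_injective ι (Fin.castLE_injective hle) _ _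
        (fun j hj => by rw [hbig f j hj, natDegree_one, mul_zero]) fun i => ?_
      rw [← hgdeg f i]
      simp only [ι, Fin.val_castLE]
      ring⟩, by
      refine Eq.trans ?_ f.2.1.1
      refine Fintype.prod_of_injective ι (Fin.castLE_injective hle) _ _
        (fun j hj => by rw [hbig f j hj, coeff_one_zero, one_pow]) fun i => ?_
      simp only [g, coeff_contract hk.ne', zero_mul, ι, Fin.val_castLE], fun i hi => by
      have h1 : (f.1.1 (ι i)).1 ≠ 1 := fun h => hi (by
        refine (goodPoly_eq_one_iff (g f i)).2 ?_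
        have := hgdeg f i
        rw [h, natDegree_one] at this
        rcases Nat.mul_eq_zero.1 this with h0 | h0
        · exact h0
        · omega)
      exact f.2.1.2 _ h1⟩
  refine Nat.card_le_card_of_injective K fun f f' h => ?_
  have h' : g f = g f' := congrArg (fun v : {f : Tup F m m // tupConst f = δ ∧ SuppDvd d f} => v.1.1) h
  refine Subtype.ext (Subtype.ext (funext fun j => ?_))
  by_cases hj : j ∈ Set.range ι
  · obtain ⟨i, rfl⟩ := hj
    have h'' := congrArg (fun v => expand F k v) (congrArg Subtype.val (congrFun h' i))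
    simp only [g, (f.2.2 (ι i)).2, (f'.2.2 (ι i)).2] at h''
    exact Subtype.ext h''
  · exact Subtype.ext ((hbig f j hj).trans (hbig f' j hj).symm)

/-- The bound for the classes fixed by a central element of order `k`. -/
def fixBound (Q n k : ℕ) : ℕ :=
  ∑ d ∈ (Nat.gcd n (Q - 1)).divisors, Nat.totient d * if d * k ∣ n then d * nb Q (n / k / d) else 0

theorem card_fixed_le (n : ℕ) (hn : 1 ≤ n) (z : Fˣ) (ζ : Matrix.SpecialLinearGroup (Fin n) F)
    (hζ : (ζ : Matrix (Fin n) (Fin n) F) = (z : F) • 1) :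
    Nat.card {s : ConjClasses (Matrix.SpecialLinearGroup (Fin n) F) //
        ∃ g, g * s.out * g⁻¹ = ζ * s.out} ≤ fixBound q n (orderOf z) := by
  classical
  haveI := fun J m => finite_tup (F := F) J m
  obtain ⟨E, T, hT, hc, hle⟩ := exists_classes_SL (F := F) n
  let Rel : ConjClasses (GL (Fin n) F) → Prop := fun c =>
    ∃ S : GL (Fin n) F, (S : Matrix (Fin n) (Fin n) F) * c.out = ((z : F) • (c.out : Matrix (Fin n) (Fin n) F)) * S
  have hrel : ∀ s : ConjClasses (Matrix.SpecialLinearGroup (Fin n) F), (∃ g, g * s.out * g⁻¹ = ζ * s.out) →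
      Rel (ConjClasses.mk (Matrix.SpecialLinearGroup.toGL s.out)) := by
    rintro s ⟨g, hg⟩
    obtain ⟨U, hU⟩ := isConj_iff.1 (ConjClasses.mk_eq_mk_iff_isConj.1
      (Quotient.out_eq (ConjClasses.mk (Matrix.SpecialLinearGroup.toGL s.out))))
    set c := ConjClasses.mk (Matrix.SpecialLinearGroup.toGL s.out)
    set a := Matrix.SpecialLinearGroup.toGL s.out with ha
    have h1 : Matrix.SpecialLinearGroup.toGL g * a = Matrix.SpecialLinearGroup.toGL ζ * a * Matrix.SpecialLinearGroup.toGL g := by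
      rw [ha, ← map_mul, ← map_mul, ← map_mul]
      exact congrArg _ (mul_inv_eq_iff_eq_mul.1 hg)
    have hcomm : ∀ v : GL (Fin n) F, v * Matrix.SpecialLinearGroup.toGL ζ = Matrix.SpecialLinearGroup.toGL ζ * v := fun v =>
      Units.ext (by
        rw [Units.val_mul, Units.val_mul, show ((Matrix.SpecialLinearGroup.toGL ζ : GL (Fin n) F) : Matrix (Fin n) (Fin n) F) =
          (z : F) • 1 from hζ]
        simp)
    refine ⟨U⁻¹ * Matrix.SpecialLinearGroup.toGL g * U, ?_⟩
    have h2 : U⁻¹ * Matrix.SpecialLinearGroup.toGL g * U * c.out =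
        Matrix.SpecialLinearGroup.toGL ζ * c.out * (U⁻¹ * Matrix.SpecialLinearGroup.toGL g * U) := by
      have hc' : c.out = U⁻¹ * a * U := by rw [← hU]; group
      rw [hc']
      calc U⁻¹ * Matrix.SpecialLinearGroup.toGL g * U * (U⁻¹ * a * U)
          = U⁻¹ * (Matrix.SpecialLinearGroup.toGL g * a) * U := by group
        _ = U⁻¹ * Matrix.SpecialLinearGroup.toGL ζ * a * Matrix.SpecialLinearGroup.toGL g * U := by rw [h1]; group
        _ = Matrix.SpecialLinearGroup.toGL ζ * U⁻¹ * a * Matrix.SpecialLinearGroup.toGL g * U := by rw [hcomm U⁻¹]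
        _ = _ := by group
    have h3 := congrArg Units.val h2
    simp only [Units.val_mul] at h3 ⊢
    rw [h3, show ((Matrix.SpecialLinearGroup.toGL ζ : GL (Fin n) F) : Matrix (Fin n) (Fin n) F) = (z : F) • 1 from hζ,
      smul_mul_assoc (z : F) (1 : Matrix (Fin n) (Fin n) F) _, one_mul]
  refine le_trans (Nat.card_le_card_of_injective
    (fun s : {s : ConjClasses (Matrix.SpecialLinearGroup (Fin n) F) // ∃ g, g * s.out * g⁻¹ = ζ * s.out} =>
      (⟨s.1, hrel s.1 s.2⟩ : {s : ConjClasses (Matrix.SpecialLinearGroup (Fin n) F) //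
          Rel (ConjClasses.mk (Matrix.SpecialLinearGroup.toGL s.out))}))
    fun a b h => Subtype.ext (congrArg (fun v => v.1) h)) ((hle Rel).trans ?_)
  refine Finset.sum_le_sum fun d _ => Nat.mul_le_mul_left _ ?_
  refine le_trans ?_ (card_expand_le n d (orderOf z) hn (orderOf_pos z) ((-1) ^ n))
  refine Nat.card_le_card_of_injective
    (fun c : {c : ConjClasses (GL (Fin n) F) //
        ((c.out : Matrix (Fin n) (Fin n) F).det = 1 ∧ Rel c) ∧ d ∣ E c} =>
      (⟨T c.1, ⟨by rw [(hc c.1).2.1, c.2.1.1, mul_one], (hc c.1).2.2.1 d c.2.2⟩, fun j => by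
        obtain ⟨ι, _, P, e, hP, ⟨Φ⟩, hTj⟩ := (hc c.1).2.2.2
        obtain ⟨S, hS⟩ := c.2.1.2
        refine exists_expand z ((T c.1).1 j).2.2 ?_
        rw [hTj j]
        exact prod_fibre_comp _ P e hP Φ z S hS _ (Nat.le_add_left 1 _)⟩ :
        {f : Tup F n n // (tupConst f = (-1) ^ n ∧ SuppDvd d f) ∧
          ∀ j, orderOf z ∣ (f.1 j).1.natDegree ∧ expand F (orderOf z) (contract (orderOf z) (f.1 j).1) = (f.1 j).1}))
    fun a b h => Subtype.ext (hT (congrArg (fun v => v.1) h))

/-- The action of the centre on the classes. -/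
theorem card_classes_quotient_bound {G : Type*} [Group G] [Finite G] :
    Nat.card (ConjClasses G) ≤ Nat.card (Subgroup.center G) * Nat.card (ConjClasses (G ⧸ Subgroup.center G)) ∧
    ∀ B : Subgroup.center G → ℕ,
      (∀ ζ : Subgroup.center G, Nat.card {c : ConjClasses G // ∃ g, g * c.out * g⁻¹ = (ζ : G) * c.out} ≤ B ζ) →
      ∀ [Fintype (Subgroup.center G)],
      Nat.card (Subgroup.center G) * Nat.card (ConjClasses (G ⧸ Subgroup.center G)) ≤ ∑ ζ, B ζ := by
  classical
  have hcen : ∀ (ζ : Subgroup.center G) (g : G), g * (ζ : G) = (ζ : G) * g := fun ζ g =>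
    Subgroup.mem_center_iff.1 ζ.2 g
  letI : SMul (Subgroup.center G) (ConjClasses G) := ⟨fun ζ c => ConjClasses.mk ((ζ : G) * c.out)⟩
  have hsmul : ∀ (ζ : Subgroup.center G) (g : G), ζ • ConjClasses.mk g = ConjClasses.mk ((ζ : G) * g) := by
    intro ζ g
    obtain ⟨u, hu⟩ := isConj_iff.1 (ConjClasses.mk_eq_mk_iff_isConj.1 (Quotient.out_eq (ConjClasses.mk g)))
    refine ConjClasses.mk_eq_mk_iff_isConj.2 (isConj_iff.2 ⟨u, ?_⟩)
    rw [← mul_assoc u, hcen ζ u, mul_assoc (ζ : G), mul_assoc (ζ : G), hu]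
  letI : MulAction (Subgroup.center G) (ConjClasses G) :=
    { one_smul := fun c => by
        induction c using Quotient.inductionOn with
        | _ g => exact (hsmul 1 g).trans (by rw [OneMemClass.coe_one, one_mul]; rfl)
      mul_smul := fun a b c => by
        induction c using Quotient.inductionOn with
        | _ g =>
          show (a * b) • ConjClasses.mk g = a • b • ConjClasses.mk g
          rw [hsmul, hsmul, hsmul, Subgroup.coe_mul, mul_assoc] }
  let π : ConjClasses G → ConjClasses (G ⧸ Subgroup.center G) :=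
    ConjClasses.map (QuotientGroup.mk' (Subgroup.center G))
  have hπ : ∀ a b : ConjClasses G, π a = π b ↔ a ∈ MulAction.orbit (Subgroup.center G) b := by
    intro a b
    induction a using Quotient.inductionOn with
    | _ x =>
      induction b using Quotient.inductionOn with
      | _ y =>
        show π (ConjClasses.mk x) = π (ConjClasses.mk y) ↔ ConjClasses.mk x ∈ MulAction.orbit _ (ConjClasses.mk y)
        show ConjClasses.mk (QuotientGroup.mk' (Subgroup.center G) x) = ConjClasses.mk (QuotientGroup.mk' (Subgroup.center G) y) ↔ _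
        rw [ConjClasses.mk_eq_mk_iff_isConj, MulAction.mem_orbit_iff]
        constructor
        · intro h
          obtain ⟨u, hu⟩ := isConj_iff.1 h
          obtain ⟨u, rfl⟩ := QuotientGroup.mk'_surjective _ u
          rw [← map_inv, ← map_mul, ← map_mul, QuotientGroup.mk'_eq_mk'] at hu
          obtain ⟨ζ, hζ, h'⟩ := hu
          refine ⟨(⟨ζ, hζ⟩ : Subgroup.center G)⁻¹, ?_⟩
          rw [hsmul, ConjClasses.mk_eq_mk_iff_isConj]
          refine IsConj.symm (isConj_iff.2 ⟨u, ?_⟩)
          rw [← h', ← hcen, Subgroup.coe_inv, mul_inv_cancel_right]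
        · rintro ⟨ζ, hζ⟩
          rw [hsmul, ConjClasses.mk_eq_mk_iff_isConj] at hζ
          have := (QuotientGroup.mk' (Subgroup.center G)).map_isConj hζ
          rw [map_mul, show QuotientGroup.mk' (Subgroup.center G) (ζ : G) = 1 from
            (QuotientGroup.eq_one_iff _).2 ζ.2, one_mul] at this
          exact this.symm
  have e : MulAction.orbitRel.Quotient (Subgroup.center G) (ConjClasses G) ≃ ConjClasses (G ⧸ Subgroup.center G) :=
    Equiv.ofBijective (Quotient.lift π fun a b h => (hπ a b).2 h)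
      ⟨fun a b => Quotient.inductionOn₂ a b fun x y h => Quotient.sound ((hπ x y).1 h), fun c => by
        induction c using Quotient.inductionOn with
        | _ x =>
          obtain ⟨x, rfl⟩ := QuotientGroup.mk'_surjective (Subgroup.center G) x
          exact ⟨Quotient.mk _ (ConjClasses.mk x), rfl⟩⟩
  haveI : Fintype (MulAction.orbitRel.Quotient (Subgroup.center G) (ConjClasses G)) := Fintype.ofFinite _
  haveI : ∀ ζ : Subgroup.center G, Fintype (MulAction.fixedBy (ConjClasses G) ζ) := fun ζ => Fintype.ofFinite _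
  have hB : ∀ [Fintype (Subgroup.center G)],
      ∑ ζ : Subgroup.center G, Nat.card (MulAction.fixedBy (ConjClasses G) ζ) =
        Nat.card (Subgroup.center G) * Nat.card (ConjClasses (G ⧸ Subgroup.center G)) := by
    intro _
    rw [← Nat.card_congr e, mul_comm]
    simp only [Nat.card_eq_fintype_card]
    exact MulAction.sum_card_fixedBy_eq_card_orbits_mul_card_group _ _
  refine ⟨?_, fun B hBB => ?_⟩
  · haveI : Fintype (Subgroup.center G) := Fintype.ofFinite _
    rw [← hB]
    refine le_trans ?_ (Finset.single_le_sum (fun _ _ => Nat.zero_le _) (Finset.mem_univ 1))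
    exact le_of_eq (Nat.card_congr (Equiv.subtypeUnivEquiv fun c => one_smul _ c)).symm
  · intro _
    rw [← hB]
    refine Finset.sum_le_sum fun ζ _ => le_trans ?_ (hBB ζ)
    refine Nat.card_le_card_of_injective (fun c => ⟨c.1, ?_⟩) fun a b h => Subtype.ext (congrArg (fun v => v.1) h)
    have h1 : ConjClasses.mk c.1.out = ConjClasses.mk ((ζ : G) * c.1.out) :=
      (Quotient.out_eq c.1).trans (MulAction.mem_fixedBy.1 c.2).symm
    exact isConj_iff.1 (ConjClasses.mk_eq_mk_iff_isConj.1 h1)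

theorem card_classes_PSL_bounds (n : ℕ) (hn : 1 ≤ n) :
    Nat.card (ConjClasses (Matrix.SpecialLinearGroup (Fin n) F)) ≤
        Nat.gcd n (q - 1) * Nat.card (ConjClasses (Matrix.ProjectiveSpecialLinearGroup (Fin n) F)) ∧
      Nat.gcd n (q - 1) * Nat.card (ConjClasses (Matrix.ProjectiveSpecialLinearGroup (Fin n) F)) ≤
        ∑ k ∈ (Nat.gcd n (q - 1)).divisors, Nat.totient k * fixBound q n k := by
  classical
  haveI : Nonempty (Fin n) := ⟨⟨0, hn⟩⟩
  haveI : NeZero (Fintype.card (Fin n)) := ⟨Fintype.card_ne_zero⟩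
  obtain ⟨h1, h2⟩ := card_classes_quotient_bound (G := Matrix.SpecialLinearGroup (Fin n) F)
  have hcard : Nat.card (Subgroup.center (Matrix.SpecialLinearGroup (Fin n) F)) = Nat.gcd n (q - 1) := by
    rw [Nat.card_congr (Matrix.SpecialLinearGroup.center_equiv_rootsOfUnity' (⟨0, hn⟩ : Fin n)).toEquiv,
      Linear.card_rootsOfUnity_finite, Fintype.card_fin]
  rw [← hcard]
  refine ⟨h1, ?_⟩
  let e := Matrix.SpecialLinearGroup.center_equiv_rootsOfUnity' (R := F) (⟨0, hn⟩ : Fin n)
  haveI : Fintype (Subgroup.center (Matrix.SpecialLinearGroup (Fin n) F)) := Fintype.ofFinite _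
  haveI : IsCyclic (Subgroup.center (Matrix.SpecialLinearGroup (Fin n) F)) :=
    isCyclic_of_surjective e.symm.toMonoidHom e.symm.surjective
  refine le_trans (h2 (fun ζ => fixBound q n (orderOf ζ)) fun ζ => ?_) (le_of_eq ?_)
  · obtain ⟨r, hr1, hr⟩ := Matrix.SpecialLinearGroup.mem_center_iff.1 ζ.2
    have hval : (ζ : Matrix.SpecialLinearGroup (Fin n) F).1 = (((e ζ : rootsOfUnity _ F) : Fˣ) : F) • 1 := by
      have he : (((e ζ : rootsOfUnity _ F) : Fˣ) : F) = r := by
        simp [e, ← hr]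
      rw [he, ← hr, Matrix.scalar_apply, Matrix.smul_one_eq_diagonal]
    have ho : orderOf ζ = orderOf ((e ζ : rootsOfUnity _ F) : Fˣ) := by
      rw [Subgroup.orderOf_coe, e.orderOf_eq]
    rw [ho]
    exact card_fixed_le n hn _ _ hval
  · rw [hcard, ← Finset.sum_fiberwise_of_maps_to (g := fun ζ => orderOf ζ) (t := (Nat.gcd n (q - 1)).divisors)
      (fun ζ _ => Nat.mem_divisors.2 ⟨hcard ▸ orderOf_dvd_natCard ζ,
        fun h => (Nat.card_pos (α := Subgroup.center (Matrix.SpecialLinearGroup (Fin n) F))).ne' (hcard.trans h)⟩)]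
    refine Finset.sum_congr rfl fun k hk => ?_
    rw [Finset.sum_congr rfl (fun ζ hζ => by rw [(Finset.mem_filter.1 hζ).2]), Finset.sum_const, smul_eq_mul]
    congr 1
    exact IsCyclic.card_orderOf_eq_totient (by rw [← Nat.card_eq_fintype_card, hcard]; exact Nat.dvd_of_mem_divisors hk)

theorem pow_growth_three {Q : ℕ} (hQ : 3 ≤ Q) : ∀ e, 2 * (e + 2) + 5 ≤ 2 * Q ^ (e + 2) := by
  intro e
  induction e with
  | zero => simp; nlinarith
  | succ e ih => rw [pow_succ _ (e + 2)]; nlinarith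

theorem fixBound_one {Q n : ℕ} : fixBound Q n 1 = slBound Q n := by
  refine Finset.sum_congr rfl fun d hd => ?_
  rw [mul_one, Nat.div_one, if_pos ((Nat.dvd_of_mem_divisors hd).trans (Nat.gcd_dvd_left _ _))]

theorem extra_le {Q n : ℕ} (hQ : 2 ≤ Q) (hn : 3 ≤ n) :
    ∑ k ∈ (Nat.gcd n (Q - 1)).divisors.erase 1, Nat.totient k * fixBound Q n k ≤ 2 * Q ^ (n - 2) := by
  rcases (show Q = 2 ∨ 3 ≤ Q by omega) with rfl | h3
  · simp
  have hsmall := (nb_small hQ).1
  have h1 := nb_one hQ
  have hgcd : ∀ m, ∀ S : Finset ℕ, m.divisors = S → m ≠ 0 →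
      ∑ k ∈ (Nat.gcd m (Q - 1)).divisors.erase 1, Nat.totient k * fixBound Q m k ≤
        ∑ k ∈ S.erase 1, Nat.totient k * ∑ d ∈ S, Nat.totient d * if d * k ∣ m then d * nb Q (m / k / d) else 0 := by
    rintro m S rfl hm
    have hsub := Nat.divisors_subset_of_dvd hm (Nat.gcd_dvd_left m (Q - 1))
    exact (Finset.sum_le_sum fun k _ => Nat.mul_le_mul_left _ (Finset.sum_le_sum_of_subset hsub)).trans
      (Finset.sum_le_sum_of_subset (Finset.erase_subset_erase _ hsub))
  rcases (show n = 3 ∨ n = 4 ∨ n = 5 ∨ 6 ≤ n by omega) with rfl | rfl | rfl | h6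
  · refine (hgcd 3 {1, 3} (by decide) (by omega)).trans ?_
    simp [h1, Nat.totient_prime Nat.prime_three]
    nlinarith
  · refine (hgcd 4 {1, 2, 4} (by decide) (by omega)).trans ?_
    simp [h1, Nat.totient_prime Nat.prime_two, show Nat.totient 4 = 2 by decide]
    nlinarith
  · refine (hgcd 5 {1, 5} (by decide) (by omega)).trans ?_
    simp [h1, Nat.totient_prime (by norm_num : Nat.Prime 5)]
    have : 27 ≤ Q ^ 3 := le_trans (by norm_num : 27 ≤ 3 ^ 3) (Nat.pow_le_pow_left h3 3)
    omega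
  set g := Nat.gcd n (Q - 1)
  have hgn : g ≤ n := Nat.le_of_dvd (by omega) (Nat.gcd_dvd_left _ _)
  have hgq : g ≤ Q - 1 := Nat.le_of_dvd (by omega) (Nat.gcd_dvd_right _ _)
  have hg0 : g ≠ 0 := fun h => by have := (Nat.gcd_eq_zero_iff.1 h).1; omega
  have htwo : ∀ k ∈ g.divisors.erase 1, 2 ≤ k := fun k hk => by
    have := Nat.pos_of_mem_divisors (Finset.mem_of_mem_erase hk)
    have := Finset.ne_of_mem_erase hk
    omega
  have hfix : ∀ k ∈ g.divisors.erase 1, fixBound Q n k ≤ 2 * Q ^ (n / 2 - 1) + g * g * (2 * Q ^ (n / 4 - 1)) := by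
    intro k hk
    rw [fixBound, ← Finset.add_sum_erase _ _ (Nat.one_mem_divisors.2 hg0)]
    refine add_le_add ?_ ?_
    · rw [Nat.totient_one, one_mul]
      split_ifs
      · rw [one_mul, Nat.div_one]
        refine (nb_le_two_mul hQ _).trans (Nat.mul_le_mul_left _ (Nat.pow_le_pow_right (by omega) ?_))
        have := Nat.div_le_div_left (a := n) (htwo k hk) (by omega)
        omega
      · exact Nat.zero_le _
    calc _ ≤ ∑ d ∈ g.divisors.erase 1, Nat.totient d * (g * (2 * Q ^ (n / 4 - 1))) := by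
          refine Finset.sum_le_sum fun d hd => Nat.mul_le_mul_left _ ?_
          split_ifs
          · refine Nat.mul_le_mul (Nat.divisor_le (Finset.mem_of_mem_erase hd))
              ((nb_le_two_mul hQ _).trans (Nat.mul_le_mul_left _ (Nat.pow_le_pow_right (by omega) ?_)))
            rw [Nat.div_div_eq_div_mul]
            have := Nat.div_le_div_left (a := n) (Nat.mul_le_mul (htwo k hk) (htwo d hd)) (by omega)
            omega
          · exact Nat.zero_le _
      _ ≤ ∑ d ∈ g.divisors, Nat.totient d * (g * (2 * Q ^ (n / 4 - 1))) :=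
          Finset.sum_le_sum_of_subset (Finset.erase_subset _ _)
      _ = _ := by rw [← Finset.sum_mul, Nat.sum_totient, mul_assoc]
  refine (Finset.sum_le_sum fun k hk => Nat.mul_le_mul_left _ (hfix k hk)).trans ?_
  rw [← Finset.sum_mul]
  refine (Nat.mul_le_mul_right _ ((Finset.sum_le_sum_of_subset (Finset.erase_subset 1 g.divisors)).trans
    (le_of_eq (Nat.sum_totient g)))).trans ?_
  have e1 : g * Q ^ (n / 2 - 1) ≤ Q ^ (n - 3) := by
    refine (Nat.mul_le_mul_right _ (by omega : g ≤ Q)).trans ?_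
    rw [← pow_succ']
    exact Nat.pow_le_pow_right (by omega) (by omega)
  have e2 : g * (g * g) * Q ^ (n / 4 - 1) ≤ n * Q ^ (n / 4 + 1) := by
    refine (Nat.mul_le_mul_right _ (Nat.mul_le_mul hgn (Nat.mul_le_mul (by omega : g ≤ Q) (by omega : g ≤ Q)))).trans
      (le_of_eq ?_)
    rw [mul_assoc, ← pow_two, ← pow_add]
    congr 2
    omega
  have e3 : n * Q ^ (n / 4 + 1) ≤ 2 * Q ^ (n - 3) := by
    rw [show Q ^ (n - 3) = Q ^ (n - 4 - n / 4) * Q ^ (n / 4 + 1) by rw [← pow_add]; congr 1; omega, ← mul_assoc]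
    refine Nat.mul_le_mul_right _ ?_
    rcases (show n = 6 ∨ 7 ≤ n by omega) with rfl | h7
    · simp; omega
    · have := pow_growth_three h3 (n - 4 - n / 4 - 2)
      rw [show n - 4 - n / 4 - 2 + 2 = n - 4 - n / 4 by omega] at this
      omega
  have e4 : 3 * Q ^ (n - 3) ≤ Q ^ (n - 2) := by
    rw [show n - 2 = n - 3 + 1 by omega, pow_succ']
    exact Nat.mul_le_mul_right _ h3
  calc g * (2 * Q ^ (n / 2 - 1) + g * g * (2 * Q ^ (n / 4 - 1)))
      = 2 * (g * Q ^ (n / 2 - 1) + g * (g * g) * Q ^ (n / 4 - 1)) := by ring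
    _ ≤ 2 * Q ^ (n - 2) := Nat.mul_le_mul_left _ (by omega)

theorem card_classes_PSL_le (n : ℕ) (hn : 2 ≤ n) :
    Nat.gcd n (q - 1) * Nat.card (ConjClasses (Matrix.ProjectiveSpecialLinearGroup (Fin n) F)) ≤
      q ^ (n - 1) + 5 * q ^ (n - 2) := by
  have hQ : 2 ≤ q := Fintype.one_lt_card
  have hg0 : Nat.gcd n (q - 1) ≠ 0 := fun h => by have := (Nat.gcd_eq_zero_iff.1 h).1; omega
  refine (card_classes_PSL_bounds n (by omega)).2.trans ?_
  rw [← Finset.add_sum_erase _ _ (Nat.one_mem_divisors.2 hg0), Nat.totient_one, one_mul, fixBound_one]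
  rcases (show n = 2 ∨ 3 ≤ n by omega) with rfl | h3
  · have h1 := (sl_two hQ).1
    have h2 : ∑ k ∈ (Nat.gcd 2 (q - 1)).divisors.erase 1, Nat.totient k * fixBound q 2 k ≤ 1 := by
      have hsub := Nat.divisors_subset_of_dvd (by omega : (2 : ℕ) ≠ 0) (Nat.gcd_dvd_left 2 (q - 1))
      refine (Finset.sum_le_sum_of_subset (Finset.erase_subset_erase 1 hsub)).trans ?_
      rw [show (Nat.divisors 2).erase 1 = {2} by decide, Finset.sum_singleton]
      simp only [fixBound, Nat.totient_two, one_mul]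
      refine (Finset.sum_le_sum_of_subset hsub).trans ?_
      rw [show Nat.divisors 2 = {1, 2} by decide]
      simp [nb_one hQ]
    rw [show 2 - 1 = 1 from rfl, show 2 - 2 = 0 from rfl, pow_one, pow_zero]
    omega
  · obtain ⟨k, rfl⟩ : ∃ k, n = k + 3 := ⟨n - 3, by omega⟩
    have h1 := slBound_le hQ k
    have h2 := extra_le (n := k + 3) hQ h3
    rw [show k + 3 - 1 = k + 2 by omega, show k + 3 - 2 = k + 1 by omega] at *
    omega

end Cfsg.Agent.Spec.SLClass
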