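import Cfsg.Agent.Spec.SLClass.Count

/-!
Arithmetic of the bound for constrained tuples.
-/

set_option autoImplicit false

namespace Cfsg.Agent.Spec.SLClass

open GLClassCount Finset

/-- The bound for the number of tuples with prescribed constant. -/
def nb (Q m : ℕ) : ℕ := bnd Q m / (Q - 1)

theorem cQ_le_pow {Q : ℕ} (hQ : 2 ≤ Q) : ∀ J w, cQ Q J w ≤ Q ^ w := by
  intro J w
  rcases Nat.eq_zero_or_pos w with rfl | hw
  · rw [cQ_zero, pow_zero]
  rcases Nat.eq_zero_or_pos J with rfl | hJ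
  · simp [cQ, show w ≠ 0 by omega]
  obtain ⟨K, rfl⟩ : ∃ K, J = K + 1 := ⟨J - 1, by omega⟩
  have h := cQ_bound hQ K w hw
  have h2 : (cQ Q (K + 1) w : ℚ) ≤ (Q : ℚ) ^ w := by
    refine h.trans (mul_le_of_le_one_left (by positivity) ?_)
    have : (0 : ℚ) ≤ ((Q : ℚ)⁻¹) ^ (K + 1) := by positivity
    linarith
  exact_mod_cast h2

/-- The inner sums. -/
def inner' (Q m s : ℕ) : ℕ := ∑ D ∈ Finset.Ico 2 (m / (s + 1) + 1), cQ Q m (m - s * D)

theorem inner'_le {Q : ℕ} (hQ : 2 ≤ Q) (m s : ℕ) : (Q ^ s - 1) * inner' Q m s ≤ Q ^ (m - s) := by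
  refine le_trans (Nat.mul_le_mul_left _ (Finset.sum_le_sum fun D _ => cQ_le_pow hQ m _)) ?_
  have key : ∀ K, 1 ≤ K → s * K ≤ m →
      (Q ^ s - 1) * ∑ D ∈ Finset.Ico 2 (K + 1), Q ^ (m - s * D) + Q ^ (m - s * K) ≤ Q ^ (m - s) := by
    intro K hK
    induction K, hK using Nat.le_induction with
    | base => intro _; simp
    | succ K hK ih =>
      intro hle
      have h1 := ih (le_trans (Nat.mul_le_mul_left s (Nat.le_succ K)) hle)
      rw [Finset.sum_Ico_succ_top (by omega), Nat.mul_add (Q ^ s - 1)]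
      have hsplit : Q ^ (m - s * K) = Q ^ s * Q ^ (m - s * (K + 1)) := by
        rw [← pow_add]
        congr 1
        rw [Nat.mul_succ] at hle ⊢
        omega
      have hpos : 1 ≤ Q ^ s := Nat.one_le_pow _ _ (by omega)
      have h2 : (Q ^ s - 1) * Q ^ (m - s * (K + 1)) + Q ^ (m - s * (K + 1)) = Q ^ s * Q ^ (m - s * (K + 1)) := by
        rw [← Nat.succ_mul]
        congr 1
        omega
      omega
  rcases Nat.eq_zero_or_pos (m / (s + 1)) with h | h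
  · rw [h]; simp
  · refine le_trans (Nat.le_add_right _ _) (key _ h ?_)
    calc s * (m / (s + 1)) ≤ (s + 1) * (m / (s + 1)) := Nat.mul_le_mul_right _ (Nat.le_succ s)
      _ ≤ m := Nat.mul_div_le _ _

theorem bnd_eq (Q m : ℕ) : bnd Q m = cQ Q m m +
    ((min m (Q - 1) - 1) * (Q - 1) + ∑ s ∈ Finset.Ico 1 (min m (Q - 1)), inner' Q m s) := by
  rw [bnd, Finset.sum_add_distrib, Finset.sum_const, Nat.card_Ico, smul_eq_mul]
  rfl

theorem tail_le {Q : ℕ} (hQ : 4 ≤ Q) (m : ℕ) :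
    ∀ k, 225 * Q ^ 4 * ∑ s ∈ Finset.Ico 2 (2 + k), inner' Q m s ≤ 256 * Q ^ m := by
  have hterm : ∀ s, 2 ≤ s → 15 * (Q ^ (2 * s) * inner' Q m s) ≤ 16 * Q ^ m := by
    intro s hs
    rcases Nat.lt_or_ge m s with h | h
    · rw [inner', Nat.div_eq_of_lt (by omega)]
      simp
    have h1 := inner'_le (by omega : 2 ≤ Q) m s
    have h16 : 16 ≤ Q ^ s := le_trans (by norm_num : 16 ≤ 4 ^ 2) (le_trans (Nat.pow_le_pow_right (by norm_num) hs) (Nat.pow_le_pow_left hQ s))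
    have hm : Q ^ m = Q ^ s * Q ^ (m - s) := by rw [← pow_add]; congr 1; omega
    rw [hm, two_mul, pow_add]
    calc 15 * (Q ^ s * Q ^ s * inner' Q m s) = Q ^ s * (15 * Q ^ s * inner' Q m s) := by ring
      _ ≤ Q ^ s * (16 * (Q ^ s - 1) * inner' Q m s) :=
          Nat.mul_le_mul_left _ (Nat.mul_le_mul_right _ (by omega))
      _ = 16 * Q ^ s * ((Q ^ s - 1) * inner' Q m s) := by ring
      _ ≤ 16 * Q ^ s * Q ^ (m - s) := Nat.mul_le_mul_left _ h1
      _ = _ := by ring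
  intro k
  have key : 225 * Q ^ 4 * (∑ s ∈ Finset.Ico 2 (2 + k), inner' Q m s) * (Q ^ 2) ^ k + 256 * Q ^ m ≤
      256 * Q ^ m * (Q ^ 2) ^ k := by
    induction k with
    | zero => simp
    | succ k ih =>
      rw [show 2 + (k + 1) = (2 + k) + 1 by omega, Finset.sum_Ico_succ_top (by omega)]
      have ht := hterm (2 + k) (by omega)
      rw [pow_mul, pow_add] at ht
      have hr : 16 ≤ Q ^ 2 := le_trans (by norm_num : 16 ≤ 4 ^ 2) (Nat.pow_le_pow_left hQ 2)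
      rw [show Q ^ 4 = (Q ^ 2) ^ 2 from (pow_mul Q 2 2)] at ih ⊢
      set r := Q ^ 2
      rw [pow_succ r k]
      nlinarith [Nat.mul_le_mul_left r ih, Nat.mul_le_mul_left (15 * r) ht,
        Nat.mul_le_mul_left (16 * Q ^ m) hr]
  refine Nat.le_of_mul_le_mul_right (le_trans (Nat.le_add_right _ _) key) ?_
  positivity

theorem nb_spec {Q : ℕ} (hQ : 2 ≤ Q) (m : ℕ) : (Q - 1) * nb Q m ≤ bnd Q m := Nat.mul_div_le _ _

theorem nb_ge_four {Q : ℕ} (hQ : 4 ≤ Q) (m : ℕ) :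
    10 * nb Q (m + 2) ≤ 10 * Q ^ (m + 1) + 19 * Q ^ m + 10 * (m + 1) := by
  have h := nb_spec (by omega : 2 ≤ Q) (m + 2)
  rw [bnd_eq] at h
  have hc := cQ_le_pow (by omega : 2 ≤ Q) (m + 2) (m + 2)
  have h1 := inner'_le (by omega : 2 ≤ Q) (m + 2) 1
  rw [pow_one, show m + 2 - 1 = m + 1 by omega] at h1
  have hk : (min (m + 2) (Q - 1) - 1) * (Q - 1) ≤ (m + 1) * (Q - 1) := Nat.mul_le_mul_right _ (by omega)
  have h2 := tail_le hQ (m + 2) (min (m + 2) (Q - 1) - 2)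
  rw [show 2 + (min (m + 2) (Q - 1) - 2) = min (m + 2) (Q - 1) by omega] at h2
  rw [Finset.sum_eq_sum_Ico_succ_bot (by omega : 1 < min (m + 2) (Q - 1))] at h
  obtain ⟨P, rfl⟩ : ∃ P, Q = P + 4 := ⟨Q - 4, by omega⟩
  rw [show P + 4 - 1 = P + 3 by omega] at *
  simp only [show 1 + 1 = 2 by rfl] at h
  set U := ∑ s ∈ Finset.Ico 2 (min (m + 2) (P + 3)), inner' (P + 4) (m + 2) s
  set T := inner' (P + 4) (m + 2) 1
  set Y := (P + 4) ^ m with hY
  have e1 : (P + 4) ^ (m + 1) = (P + 4) * Y := by rw [pow_succ']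
  have e2 : (P + 4) ^ (m + 2) = (P + 4) * (P + 4) * Y := by rw [hY, pow_add]; ring
  rw [e2] at hc h2
  rw [e1] at h1 ⊢
  have hU : 8 * U ≤ Y := by
    have : 225 * 16 * U ≤ 256 * Y := by
      refine Nat.le_of_mul_le_mul_left ?_ (show 0 < (P + 4) * (P + 4) by positivity)
      calc (P + 4) * (P + 4) * (225 * 16 * U) ≤ (P + 4) * (P + 4) * (225 * ((P + 4) * (P + 4)) * U) := by
            refine Nat.mul_le_mul_left _ (Nat.mul_le_mul_right _ (Nat.mul_le_mul_left _ ?_))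
            exact Nat.mul_le_mul (by omega : 4 ≤ P + 4) (by omega : 4 ≤ P + 4)
        _ = 225 * (P + 4) ^ 4 * U := by ring
        _ ≤ 256 * ((P + 4) * (P + 4) * Y) := h2
        _ = _ := by ring
    omega
  have hT : 3 * T ≤ 4 * Y := by nlinarith
  refine Nat.le_of_mul_le_mul_left ?_ (show 0 < P + 3 by omega)
  nlinarith

theorem nb_three (m : ℕ) : 4 * nb 3 (m + 2) ≤ 4 * 3 ^ (m + 1) + 9 * 3 ^ m + 4 := by
  have h := nb_spec (le_refl 2 |>.trans (by norm_num : 2 ≤ 3)) (m + 2)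
  rw [bnd_eq, show min (m + 2) (3 - 1) = 2 by omega, show Finset.Ico 1 2 = {1} by rfl,
    Finset.sum_singleton] at h
  have hc := cQ_le_pow (by norm_num : 2 ≤ 3) (m + 2) (m + 2)
  have h1 := inner'_le (by norm_num : 2 ≤ 3) (m + 2) 1
  rw [pow_one, show m + 2 - 1 = m + 1 by omega] at h1
  simp only [pow_succ] at hc h1 ⊢
  omega

theorem nb_two (m : ℕ) : nb 2 m ≤ 2 ^ m := by
  rw [nb, bnd_eq, show min m (2 - 1) - 1 = 0 by omega,
    Finset.Ico_eq_empty (by omega : ¬ 1 < min m (2 - 1))]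
  simpa using cQ_le_pow (le_refl 2) m m

theorem cQ_one' (Q w : ℕ) : cQ Q 1 (w + 1) = (Q - 1) * Q ^ w := by rw [cQ_one, phiQ]

theorem nb_one {Q : ℕ} (hQ : 2 ≤ Q) : nb Q 1 = 1 := by
  rw [nb, bnd_eq, show min 1 (Q - 1) - 1 = 0 by omega,
    Finset.Ico_eq_empty (by omega : ¬ 1 < min 1 (Q - 1))]
  simp [cQ_one, phiQ, Nat.div_self (show 0 < Q - 1 by omega)]

theorem nb_small {Q : ℕ} (hQ : 2 ≤ Q) :
    nb Q 2 ≤ Q + 2 ∧ nb Q 3 ≤ Q ^ 2 + Q + 2 ∧
      nb Q 4 + 2 ≤ Q ^ 3 + Q ^ 2 + 2 * Q + 6 ∧ (Q = 3 → nb Q 4 ≤ 44) := by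
  obtain ⟨P, rfl⟩ : ∃ P, Q = P + 1 := ⟨Q - 1, by omega⟩
  have hP : 0 < P := by omega
  have c22 : cQ (P + 1) 2 2 = P * (P + 2) := by
    simp [cQ, phiQ, Finset.sum_range_succ]; ring
  have c33 : cQ (P + 1) 3 3 = P * ((P + 1) ^ 2 + (P + 1)) := by
    simp [cQ, phiQ, Finset.sum_range_succ]; ring
  have c42 : cQ (P + 1) 4 2 = P * (P + 2) := by
    simp [cQ, phiQ, Finset.sum_range_succ]; ring
  have c44 : cQ (P + 1) 4 4 = P * ((P + 1) ^ 3 + (P + 1) ^ 2 + (P + 1)) := by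
    simp [cQ, phiQ, Finset.sum_range_succ]; ring
  have hcard : ∀ m, (min m P - 1) * P ≤ (m - 1) * P := fun m => Nat.mul_le_mul_right _ (by omega)
  have hsum : ∀ m, ∑ s ∈ Finset.Ico 1 (min m P), inner' (P + 1) m s ≤ ∑ s ∈ Finset.Ico 1 m, inner' (P + 1) m s :=
    fun m => Finset.sum_le_sum_of_subset (Finset.Ico_subset_Ico le_rfl (by omega))
  have hs2 : ∑ s ∈ Finset.Ico 1 2, inner' (P + 1) 2 s = 0 := by
    simp [inner', Finset.sum_Ico_eq_sum_range, Finset.sum_range_succ]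
  have hs3 : ∑ s ∈ Finset.Ico 1 3, inner' (P + 1) 3 s = 0 := by
    simp [inner', Finset.sum_Ico_eq_sum_range, Finset.sum_range_succ]
  have hs4 : ∑ s ∈ Finset.Ico 1 4, inner' (P + 1) 4 s = P * (P + 2) := by
    simp [inner', Finset.sum_Ico_eq_sum_range, Finset.sum_range_succ, c42]
  refine ⟨?_, ?_, ?_, fun h3 => ?_⟩
  · have h := nb_spec (Q := P + 1) (by omega) 2
    rw [bnd_eq, Nat.add_sub_cancel, c22] at h
    have := hcard 2; have := hsum 2
    refine Nat.le_of_mul_le_mul_left ?_ hP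
    nlinarith
  · have h := nb_spec (Q := P + 1) (by omega) 3
    rw [bnd_eq, Nat.add_sub_cancel, c33] at h
    have := hcard 3; have := hsum 3
    refine Nat.le_of_mul_le_mul_left ?_ hP
    nlinarith
  · have h := nb_spec (Q := P + 1) (by omega) 4
    rw [bnd_eq, Nat.add_sub_cancel, c44] at h
    have := hcard 4; have := hsum 4
    refine Nat.le_of_mul_le_mul_left ?_ hP
    nlinarith
  · obtain rfl : P = 2 := by omega
    have h := nb_spec (Q := 2 + 1) (by omega) 4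
    rw [bnd_eq, Nat.add_sub_cancel, c44, show min 4 2 = 2 by rfl] at h
    simp [inner', Finset.sum_Ico_eq_sum_range, c42] at h
    show nb (2 + 1) 4 ≤ 44
    simp only [Nat.reduceAdd] at h ⊢
    omega

theorem nb_le_two_mul {Q : ℕ} (hQ : 2 ≤ Q) (m : ℕ) : nb Q m ≤ 2 * Q ^ (m - 1) := by
  match m with
  | 0 =>
    rw [nb, bnd_eq, cQ_zero]
    simp only [Nat.zero_min, Finset.Ico_eq_empty (by omega : ¬ 1 < 0), Finset.sum_empty, Nat.zero_sub,
      zero_mul, add_zero, pow_zero, mul_one]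
    exact le_trans (Nat.div_le_self _ _) (by omega)
  | 1 => rw [nb_one hQ]; simp
  | k + 2 =>
    show nb Q (k + 2) ≤ 2 * Q ^ (k + 1)
    rcases (show Q = 2 ∨ Q = 3 ∨ 4 ≤ Q by omega) with rfl | rfl | h4
    · exact (nb_two _).trans (le_of_eq (pow_succ' 2 (k + 1)))
    · have := nb_three k
      have hk : 1 ≤ 3 ^ k := Nat.one_le_pow _ _ (by omega)
      rw [pow_succ] at this ⊢
      rcases Nat.eq_zero_or_pos k with rfl | hk0
      · have := (nb_small (le_refl 2 |>.trans (by norm_num : 2 ≤ 3))).1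
        simp at this ⊢
        omega
      · have : 3 ≤ 3 ^ k := Nat.le_self_pow (by omega) 3
        omega
    · have := nb_ge_four h4 k
      have hk : k + 1 ≤ Q ^ k := Nat.lt_pow_self (by omega)
      rw [pow_succ] at this ⊢
      have h5 : 4 * Q ^ k ≤ Q ^ k * Q := by rw [mul_comm]; exact Nat.mul_le_mul_left _ h4
      omega

end Cfsg.Agent.Spec.SLClass
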