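import Cfsg.Agent.Spec.SLClass.Data

/-!
The number of classes of `SL_n(q)` in terms of constrained tuples, and a bound for those.
-/

set_option autoImplicit false

namespace Cfsg.Agent.Spec.SLClass

open Polynomial GLClassCount Finset

universe u

variable {F : Type u} [Field F]

local notation "q" => Fintype.card F

theorem tupConst_ne_zero {J m : ℕ} (f : Tup F J m) : tupConst f ≠ 0 :=
  Finset.prod_ne_zero_iff.2 fun j _ => pow_ne_zero _ (f.1 j).2.2

theorem goodPoly_eq_one_iff (p : GoodPoly F) : p.1 = 1 ↔ p.1.natDegree = 0 :=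
  ⟨fun h => by rw [h, natDegree_one], fun h => p.2.1.natDegree_eq_zero.1 h⟩

theorem card_nthRoots_le (d : ℕ) (hd : 0 < d) (δ : F) : Nat.card {ρ : F // ρ ^ d = δ} ≤ d := by
  classical
  have h : ∀ ρ : {ρ : F // ρ ^ d = δ}, ρ.1 ∈ (nthRoots d δ).toFinset := fun ρ =>
    Multiset.mem_toFinset.2 ((mem_nthRoots hd).2 ρ.2)
  refine (Nat.card_le_card_of_injective (fun ρ => (⟨ρ.1, h ρ⟩ : (nthRoots d δ).toFinset))
    fun a b e => Subtype.ext (congrArg (fun v => v.1) e)).trans ?_
  rw [Nat.card_eq_finsetCard]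
  exact (Multiset.toFinset_card_le _).trans (card_nthRoots d δ)

variable [Fintype F]

theorem finite_tup (J m : ℕ) : Finite (Tup F J m) := (card_tup_le F J m).1

/-- The splitting of a class. -/
theorem exists_classes_SL (n : ℕ) :
    ∃ E : ConjClasses (GL (Fin n) F) → ℕ, ∃ T : ConjClasses (GL (Fin n) F) → Tup F n n,
      Function.Injective T ∧
      (∀ c, E c ∣ Nat.gcd n (q - 1) ∧ tupConst (T c) = (-1) ^ n * (c.out : Matrix (Fin n) (Fin n) F).det ∧
        (∀ d, d ∣ E c → SuppDvd d (T c)) ∧
        ∃ (ι : Type u) (_ : Fintype ι) (P : ι → F[X]) (e : ι → ℕ), (∀ i, Irreducible (P i) ∧ (P i).Monic) ∧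
          Nonempty (Module.AEval' (Matrix.toLin' (c.out : Matrix (Fin n) (Fin n) F)) ≃ₗ[F[X]]
            Π i, F[X] ⧸ Ideal.span {P i ^ e i}) ∧
          ∀ j : Fin n, ((T c).1 j).1 = ∏ i ∈ Finset.univ.filter (fun i => e i = (j : ℕ) + 1), P i) ∧
      ∀ Rel : ConjClasses (GL (Fin n) F) → Prop,
      Nat.card {s : ConjClasses (Matrix.SpecialLinearGroup (Fin n) F) //
          Rel (ConjClasses.mk (Matrix.SpecialLinearGroup.toGL s.out))} ≤
        ∑ d ∈ (Nat.gcd n (q - 1)).divisors, Nat.totient d *
          Nat.card {c : ConjClasses (GL (Fin n) F) //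
            ((c.out : Matrix (Fin n) (Fin n) F).det = 1 ∧ Rel c) ∧ d ∣ E c} := by
  classical
  obtain ⟨T, hT, hTc⟩ := exists_tup_map (F := F) n
  choose hconst hE hdata using hTc
  choose E hidx hEq hEn hsupp using hE
  refine ⟨E, T, hT, fun c => ⟨Nat.dvd_gcd (hEn c) (hEq c), hconst c, hsupp c, hdata c⟩, fun Rel => ?_⟩
  have hq0 : q - 1 ≠ 0 := by have := Fintype.one_lt_card (α := F); omega
  have hG0 : Nat.gcd n (q - 1) ≠ 0 := fun h => hq0 (Nat.gcd_eq_zero_iff.1 h).2
  have hc : ∀ s : ConjClasses (Matrix.SpecialLinearGroup (Fin n) F),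
      ∃ S : GL (Fin n) F, S * (ConjClasses.mk (Matrix.SpecialLinearGroup.toGL s.out)).out * S⁻¹ =
        Matrix.SpecialLinearGroup.toGL s.out := fun s => by
    have := ConjClasses.mk_eq_mk_iff_isConj.1
      (Quotient.out_eq (ConjClasses.mk (Matrix.SpecialLinearGroup.toGL s.out)))
    exact isConj_iff.1 this
  choose S hS using hc
  let C0 := {c : ConjClasses (GL (Fin n) F) // (c.out : Matrix (Fin n) (Fin n) F).det = 1 ∧ Rel c}
  have hdet : ∀ s : ConjClasses (Matrix.SpecialLinearGroup (Fin n) F),
      ((ConjClasses.mk (Matrix.SpecialLinearGroup.toGL s.out)).out : Matrix (Fin n) (Fin n) F).det = 1 := by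
    intro s
    have h1 := congrArg Matrix.GeneralLinearGroup.det (hS s)
    rw [map_mul, map_mul, map_inv, mul_right_comm, mul_inv_cancel, one_mul] at h1
    have h2 := congrArg Units.val h1
    rw [Matrix.GeneralLinearGroup.val_det_apply, Matrix.GeneralLinearGroup.val_det_apply] at h2
    rw [h2]
    exact s.out.det_coe
  let Φ : {s : ConjClasses (Matrix.SpecialLinearGroup (Fin n) F) //
      Rel (ConjClasses.mk (Matrix.SpecialLinearGroup.toGL s.out))} → Σ c : C0, Fˣ ⧸ detCent c.1.out := fun s =>
    ⟨⟨_, hdet s.1, s.2⟩, QuotientGroup.mk (Matrix.GeneralLinearGroup.det (S s.1))⟩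
  have hinj : Function.Injective Φ := by
    rintro ⟨s, hs⟩ ⟨s', hs'⟩ h
    refine Subtype.ext ?_
    show s = s'
    simp only [Φ, Sigma.mk.injEq] at h
    obtain ⟨h1, h2⟩ := h
    have hc1 : ConjClasses.mk (Matrix.SpecialLinearGroup.toGL s.out) =
        ConjClasses.mk (Matrix.SpecialLinearGroup.toGL s'.out) := congrArg Subtype.val h1
    have e2 := hS s'
    rw [← hc1] at e2
    set c := ConjClasses.mk (Matrix.SpecialLinearGroup.toGL s.out) with hcdef
    have e1 : S s * c.out * (S s)⁻¹ = Matrix.SpecialLinearGroup.toGL s.out := hS s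
    have h3 : (Matrix.GeneralLinearGroup.det (S s))⁻¹ * Matrix.GeneralLinearGroup.det (S s') ∈ detCent c.out := by
      have key : ∀ {a b : ConjClasses (GL (Fin n) F)} (hab : a = b) (x y : Fˣ),
          HEq (QuotientGroup.mk x : Fˣ ⧸ detCent a.out) (QuotientGroup.mk y : Fˣ ⧸ detCent b.out) →
            x⁻¹ * y ∈ detCent a.out := by
        rintro a b rfl x y hxy
        exact QuotientGroup.eq.1 (eq_of_heq hxy)
      exact key hc1 _ _ h2
    obtain ⟨C, hC, hCdet⟩ := h3
    have hCc : C * c.out = c.out * C := Subgroup.mem_centralizer_singleton_iff.1 hC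
    set R := S s * C * (S s')⁻¹ with hR
    have hRdet : (R : Matrix (Fin n) (Fin n) F).det = 1 := by
      have : Matrix.GeneralLinearGroup.det R = 1 := by
        rw [hR, map_mul, map_mul, map_inv, hCdet, mul_inv_cancel_left, mul_inv_cancel]
      rw [← Matrix.GeneralLinearGroup.val_det_apply, this, Units.val_one]
    let R' : Matrix.SpecialLinearGroup (Fin n) F := ⟨(R : Matrix (Fin n) (Fin n) F), hRdet⟩
    have hRe : Matrix.SpecialLinearGroup.toGL R' = R := Units.ext rfl
    have hconj : IsConj s'.out s.out := isConj_iff.2 ⟨R', by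
      apply Matrix.SpecialLinearGroup.toGL_injective
      rw [map_mul, map_mul, map_inv, hRe, hR, ← e1, ← e2]
      calc S s * C * (S s')⁻¹ * (S s' * c.out * (S s')⁻¹) * (S s * C * (S s')⁻¹)⁻¹
          = S s * (C * c.out) * C⁻¹ * (S s)⁻¹ := by group
        _ = _ := by rw [hCc]; group⟩
    rw [← Quotient.out_eq s, ← Quotient.out_eq s']
    exact (ConjClasses.mk_eq_mk_iff_isConj.2 hconj).symm
  refine (Nat.card_le_card_of_injective Φ hinj).trans ?_
  rw [Nat.card_sigma]
  calc ∑ c : C0, Nat.card (Fˣ ⧸ detCent c.1.out) ≤ ∑ c : C0, E c.1 := by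
        refine Finset.sum_le_sum fun c _ => ?_
        rw [← Subgroup.index_eq_card]
        refine Nat.le_of_dvd ?_ (hidx c.1)
        exact Nat.pos_of_ne_zero fun h => hq0 (zero_dvd_iff.1 (h ▸ hEq c.1))
    _ = ∑ c : C0, ∑ d ∈ (Nat.gcd n (q - 1)).divisors, if d ∣ E c.1 then Nat.totient d else 0 := by
        refine Finset.sum_congr rfl fun c _ => ?_
        conv_lhs => rw [← Nat.sum_totient (E c.1)]
        rw [← Finset.sum_filter]
        refine Finset.sum_congr ?_ fun _ _ => rfl
        ext d
        simp only [Nat.mem_divisors, Finset.mem_filter]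
        constructor
        · exact fun h => ⟨⟨h.1.trans (Nat.dvd_gcd (hEn c.1) (hEq c.1)), hG0⟩, h.1⟩
        · exact fun h => ⟨h.2, fun h0 => hq0 (zero_dvd_iff.1 (h0 ▸ hEq c.1))⟩
    _ = _ := by
        rw [Finset.sum_comm]
        refine Finset.sum_congr rfl fun d _ => ?_
        rw [← Finset.sum_filter, Finset.sum_const, smul_eq_mul, mul_comm]
        congr 1
        rw [← Fintype.card_subtype, ← Nat.card_eq_fintype_card]
        exact Nat.card_congr (Equiv.subtypeSubtypeEquivSubtypeInter _ (fun c => d ∣ E c))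

theorem card_classes_SL_le (n : ℕ) :
    ∃ E : ConjClasses (GL (Fin n) F) → ℕ, ∃ T : ConjClasses (GL (Fin n) F) → Tup F n n,
      Function.Injective T ∧
      (∀ c, E c ∣ Nat.gcd n (q - 1) ∧ tupConst (T c) = (-1) ^ n * (c.out : Matrix (Fin n) (Fin n) F).det ∧
        ∀ d, d ∣ E c → SuppDvd d (T c)) ∧
      Nat.card (ConjClasses (Matrix.SpecialLinearGroup (Fin n) F)) ≤
        ∑ d ∈ (Nat.gcd n (q - 1)).divisors, Nat.totient d *
          Nat.card {c : ConjClasses (GL (Fin n) F) //
            (c.out : Matrix (Fin n) (Fin n) F).det = 1 ∧ d ∣ E c} := by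
  obtain ⟨E, T, hT, hc, hle⟩ := exists_classes_SL (F := F) n
  refine ⟨E, T, hT, fun c => ⟨(hc c).1, (hc c).2.1, (hc c).2.2.1⟩, ?_⟩
  refine le_of_eq_of_le (Nat.card_congr (Equiv.subtypeUnivEquiv fun _ => trivial)).symm
    ((hle fun _ => True).trans (le_of_eq ?_))
  simp only [and_true]

/-- Compression of tuples supported at multiples of `d`. -/
theorem card_supp_le (d m : ℕ) (hd : 0 < d) (δ : F) (N : ℕ)
    (hN : ∀ ρ : F, ρ ≠ 0 → Nat.card {u : Tup F m m // tupConst u = ρ} ≤ N) :
    Nat.card {f : Tup F (d * m) (d * m) // tupConst f = δ ∧ SuppDvd d f} ≤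
      Nat.card {ρ : F // ρ ^ d = δ} * N := by
  classical
  haveI := fun J m => finite_tup (F := F) J m
  let ι : Fin m → Fin (d * m) := fun k => ⟨d * (k.val + 1) - 1, by
    have h1 : d * (k.val + 1) ≤ d * m := Nat.mul_le_mul_left d k.isLt
    have h2 : 0 < d * (k.val + 1) := Nat.mul_pos hd (Nat.succ_pos _)
    omega⟩
  have hval : ∀ k, (ι k : ℕ) + 1 = d * (k.val + 1) := fun k => by
    have h2 : 0 < d * (k.val + 1) := Nat.mul_pos hd (Nat.succ_pos _)
    show d * (k.val + 1) - 1 + 1 = d * (k.val + 1)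
    omega
  have hι : Function.Injective ι := fun a b h => by
    have := congrArg (fun v : Fin (d * m) => v.val + 1) h
    simp only [hval] at this
    exact Fin.ext (by have := Nat.eq_of_mul_eq_mul_left hd this; omega)
  have himg : ∀ f : Tup F (d * m) (d * m), SuppDvd d f → ∀ j, (f.1 j).1 ≠ 1 → j ∈ Set.range ι := by
    intro f hf j hj
    obtain ⟨k, hk⟩ := hf j hj
    have hk0 : k ≠ 0 := by rintro rfl; omega
    have hkm : k ≤ m := Nat.le_of_mul_le_mul_left (hk ▸ j.isLt) hd
    refine ⟨⟨k - 1, by omega⟩, Fin.ext ?_⟩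
    have := hval ⟨k - 1, by omega⟩
    simp only [Nat.sub_add_cancel (Nat.pos_of_ne_zero hk0)] at this
    omega
  let K : {f : Tup F (d * m) (d * m) // tupConst f = δ ∧ SuppDvd d f} →
      Σ ρ : {ρ : F // ρ ^ d = δ}, {u : Tup F m m // tupConst u = ρ.1} := fun f =>
    ⟨⟨∏ k : Fin m, (f.1.1 (ι k)).1.coeff 0 ^ ((k : ℕ) + 1), by
        refine Eq.trans ?_ f.2.1
        rw [← Finset.prod_pow]
        refine Fintype.prod_of_injective ι hι _ _ (fun j hj => ?_) fun k => ?_
        · have h1 : (f.1.1 j).1 = 1 := by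
            by_contra h
            exact hj (himg f.1 f.2.2 j h)
          rw [h1, coeff_one_zero, one_pow]
        · rw [← pow_mul, hval, Nat.mul_comm ((k : ℕ) + 1) d]⟩,
      ⟨⟨fun k => f.1.1 (ι k), by
        refine Nat.eq_of_mul_eq_mul_left hd (Eq.trans ?_ f.1.2)
        rw [Finset.mul_sum]
        refine Fintype.sum_of_injective ι hι _ _ (fun j hj => ?_) fun k => ?_
        · have h1 : (f.1.1 j).1 = 1 := by
            by_contra h
            exact hj (himg f.1 f.2.2 j h)
          simp [h1]
        · rw [hval, mul_assoc]⟩, rfl⟩⟩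
  have hK : Function.Injective K := by
    intro f f' h
    have h2 := congrArg (fun v : Σ ρ : {ρ : F // ρ ^ d = δ}, {u : Tup F m m // tupConst u = ρ.1} => v.2.1.1) h
    refine Subtype.ext (Subtype.ext (funext fun j => ?_))
    by_cases hj : j ∈ Set.range ι
    · obtain ⟨k, rfl⟩ := hj
      exact congrFun h2 k
    · refine Subtype.ext ?_
      rw [by_contra fun h' => hj (himg f.1 f.2.2 j h'), by_contra fun h' => hj (himg f'.1 f'.2.2 j h')]
  refine (Nat.card_le_card_of_injective K hK).trans ?_
  rw [Nat.card_sigma, Nat.card_eq_fintype_card, ← Finset.card_univ]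
  refine (Finset.sum_le_card_nsmul _ _ N fun ρ _ => ?_).trans (le_of_eq (smul_eq_mul _ _))
  by_cases hρ : ρ.1 = 0
  · haveI : IsEmpty {u : Tup F m m // tupConst u = ρ.1} := ⟨fun u => tupConst_ne_zero u.1 (u.2.trans hρ)⟩
    simp
  · exact hN _ hρ

/-- Tuples with the first `s` entries trivial. -/
theorem card_ge_le (m s : ℕ) (hs : 1 ≤ s) :
    Nat.card {f : Tup F m m // ∀ i : Fin m, (i : ℕ) < s → (f.1 i).1 = 1} ≤
      (q - 1) + ∑ D ∈ Finset.Ico 2 (m / (s + 1) + 1), cQ q m (m - s * D) := by
  classical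
  haveI := fun J m => finite_tup (F := F) J m
  rcases Nat.eq_zero_or_pos m with rfl | hm
  · have h := (card_tup_le F 0 0).2
    rw [cQ_zero] at h
    have hq : 1 ≤ q - 1 := by have := Fintype.one_lt_card (α := F); omega
    calc Nat.card {f : Tup F 0 0 // ∀ i : Fin 0, (i : ℕ) < s → (f.1 i).1 = 1} ≤ Nat.card (Tup F 0 0) :=
          Nat.card_le_card_of_injective _ Subtype.val_injective
      _ ≤ _ := by omega
  let X := {f : Tup F m m // ∀ i : Fin m, (i : ℕ) < s → (f.1 i).1 = 1}
  let deg : X → ℕ := fun f => ∑ j : Fin m, (f.1.1 j).1.natDegree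
  have hbound : ∀ f : X, (s + 1) * deg f ≤ m ∧ 1 ≤ deg f := by
    intro f
    constructor
    · refine le_trans ?_ (le_of_eq f.1.2)
      rw [Finset.mul_sum]
      refine Finset.sum_le_sum fun j _ => ?_
      rcases Nat.eq_zero_or_pos (f.1.1 j).1.natDegree with h | h
      · rw [h, mul_zero]; exact Nat.zero_le _
      · refine Nat.mul_le_mul_right _ ?_
        by_contra hlt
        rw [f.2 j (by omega), natDegree_one] at h
        exact absurd h (lt_irrefl 0)
    · by_contra h0
      have hz : ∀ j : Fin m, (f.1.1 j).1.natDegree = 0 := fun j =>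
        Finset.sum_eq_zero_iff.1 (show deg f = 0 by omega) j (Finset.mem_univ j)
      have := f.1.2
      simp [hz] at this
      omega
  have hwt : ∀ f : X, (∑ j : Fin m, ((j : ℕ) + 1 - s) * (f.1.1 j).1.natDegree) + s * deg f = m := by
    intro f
    conv_rhs => rw [← f.1.2]
    rw [Finset.mul_sum, ← Finset.sum_add_distrib]
    refine Finset.sum_congr rfl fun j _ => ?_
    rw [← add_mul]
    rcases Nat.eq_zero_or_pos (f.1.1 j).1.natDegree with h | h
    · rw [h, mul_zero, mul_zero]
    · congr 1
      refine Nat.sub_add_cancel (Nat.le_succ_of_le ?_)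
      by_contra hlt
      rw [f.2 j (by omega), natDegree_one] at h
      exact absurd h (lt_irrefl 0)
  let shift : X → Fin m → GoodPoly F := fun f i =>
    if h : (i : ℕ) + s < m then f.1.1 ⟨i + s, h⟩ else ⟨1, monic_one, by simp⟩
  have hshift : ∀ f : X, ∑ i : Fin m, ((i : ℕ) + 1) * (shift f i).1.natDegree = m - s * deg f := by
    intro f
    have := hwt f
    suffices ∑ i : Fin m, ((i : ℕ) + 1) * (shift f i).1.natDegree =
        ∑ j : Fin m, ((j : ℕ) + 1 - s) * (f.1.1 j).1.natDegree by omega
    rw [← Finset.sum_filter_of_ne (p := fun i : Fin m => (i : ℕ) + s < m)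
      (fun i _ hne => by
        by_contra h
        exact hne (by simp [shift, h])),
      ← Finset.sum_filter_of_ne (s := Finset.univ) (p := fun j : Fin m => s ≤ (j : ℕ))
        (f := fun j : Fin m => ((j : ℕ) + 1 - s) * (f.1.1 j).1.natDegree)
      (fun j _ hne => by
        by_contra h
        exact hne (by simp [f.2 j (by omega)]))]
    refine Finset.sum_bij' (fun i hi => (⟨i + s, (Finset.mem_filter.1 hi).2⟩ : Fin m))
      (fun j _ => (⟨j - s, lt_of_le_of_lt (Nat.sub_le _ _) j.isLt⟩ : Fin m))
      (fun i _ => Finset.mem_filter.2 ⟨Finset.mem_univ _, Nat.le_add_left s i⟩)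
      (fun j hj => Finset.mem_filter.2 ⟨Finset.mem_univ _, by
        have := (Finset.mem_filter.1 hj).2; have := j.isLt; simp only; omega⟩)
      (fun i _ => Fin.ext (Nat.add_sub_cancel _ _))
      (fun j hj => Fin.ext (Nat.sub_add_cancel (Finset.mem_filter.1 hj).2)) fun i hi => ?_
    have h := (Finset.mem_filter.1 hi).2
    rw [show shift f i = f.1.1 ⟨(i : ℕ) + s, h⟩ from dif_pos h]
    congr 1
    simp only
    omega
  have hinj : ∀ f f' : X, shift f = shift f' → f = f' := by
    intro f f' h
    refine Subtype.ext (Subtype.ext (funext fun j => ?_))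
    by_cases hj : (j : ℕ) < s
    · exact Subtype.ext ((f.2 j hj).trans (f'.2 j hj).symm)
    · have := congrFun h ⟨(j : ℕ) - s, by have := j.isLt; omega⟩
      have hlt : (j : ℕ) - s + s < m := by have := j.isLt; omega
      have hjj : (⟨(j : ℕ) - s + s, hlt⟩ : Fin m) = j := Fin.ext (by simp only; omega)
      have e : ∀ g : X, shift g ⟨(j : ℕ) - s, by have := j.isLt; omega⟩ = g.1.1 j := fun g =>
        (dif_pos hlt).trans (by rw [hjj])
      rwa [e f, e f'] at this
  let A := {f : X // deg f = 1}
  let B := {f : X // ¬ deg f = 1}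
  have hsplit : Nat.card X = Nat.card A + Nat.card B := by
    rw [← Nat.card_sum]; exact Nat.card_congr (Equiv.sumCompl _).symm
  refine le_of_eq_of_le hsplit (add_le_add ?_ ?_)
  · have hpos : ∀ f : A, ∀ j : Fin m, (f.1.1.1 j).1 ≠ 1 → (j : ℕ) = m - 1 := by
      intro f j hj
      have h1 : 1 ≤ (f.1.1.1 j).1.natDegree := by
        by_contra h
        exact hj ((goodPoly_eq_one_iff _).2 (by omega))
      have hle := Finset.single_le_sum (f := fun i : Fin m => (f.1.1.1 i).1.natDegree)
        (fun _ _ => Nat.zero_le _) (Finset.mem_univ j)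
      have hsum : ∑ i : Fin m, (f.1.1.1 i).1.natDegree = 1 := f.2
      have hothers : ∀ i : Fin m, i ≠ j → (f.1.1.1 i).1.natDegree = 0 := by
        intro i hij
        have h2 := Finset.add_le_sum (f := fun i : Fin m => (f.1.1.1 i).1.natDegree)
          (fun _ _ => Nat.zero_le _) (Finset.mem_univ j) (Finset.mem_univ i) (Ne.symm hij)
        omega
      have hw := f.1.1.2
      rw [Finset.sum_eq_single j (fun i _ hij => by rw [hothers i hij, mul_zero]) (by simp),
        show (f.1.1.1 j).1.natDegree = 1 by omega, mul_one] at hw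
      omega
    have hlast : ∀ f : A, (f.1.1.1 ⟨m - 1, by omega⟩).1.natDegree = 1 := by
      intro f
      refine Eq.trans ?_ f.2
      refine (Finset.sum_eq_single (f := fun i : Fin m => (f.1.1.1 i).1.natDegree) _
        (fun i _ hi => ?_) (by simp)).symm
      by_contra h
      exact hi (Fin.ext (hpos f i fun h1 => h (by simp [h1])))
    haveI : Finite {g : GoodPoly F // g.1.natDegree = 1} := (card_goodDeg F 1).2
    refine (Nat.card_le_card_of_injective (fun f : A => (⟨f.1.1.1 ⟨m - 1, by omega⟩, hlast f⟩ : {g : GoodPoly F // g.1.natDegree = 1})) ?_).trans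
      (le_of_eq ?_)
    · intro f f' h
      have h' := congrArg Subtype.val h
      refine Subtype.ext (Subtype.ext (Subtype.ext (funext fun j => ?_)))
      by_cases hj : (j : ℕ) = m - 1
      · rw [show j = ⟨m - 1, by omega⟩ from Fin.ext hj]; exact h'
      · exact Subtype.ext ((by_contra fun h1 => hj (hpos f j h1) : (f.1.1.1 j).1 = 1).trans
          (by_contra fun h1 => hj (hpos f' j h1) : (f'.1.1.1 j).1 = 1).symm)
    · rw [show Nat.card {g : GoodPoly F // g.1.natDegree = 1} = _ from (card_goodDeg F 1).1, phiQ, pow_zero, mul_one, Nat.card_eq_fintype_card]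
  · let I := Finset.Ico 2 (m / (s + 1) + 1)
    have hmem : ∀ f : B, deg f.1 ∈ I := by
      intro f
      rw [Finset.mem_Ico, Nat.lt_succ_iff, Nat.le_div_iff_mul_le (by omega), mul_comm]
      have := f.2
      have h2 := (hbound f.1).2
      exact ⟨by omega, (hbound f.1).1⟩
    let Ψ : B → Σ D : I, Tup F m (m - s * D.1) := fun f => ⟨⟨deg f.1, hmem f⟩, ⟨shift f.1, hshift f.1⟩⟩
    have hΨ : Function.Injective Ψ := fun f f' h =>
      Subtype.ext (hinj _ _ (congrArg (fun v : Σ D : I, Tup F m (m - s * D.1) => v.2.1) h))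
    refine (Nat.card_le_card_of_injective Ψ hΨ).trans ?_
    rw [Nat.card_sigma, ← Finset.sum_coe_sort I]
    refine Finset.sum_le_sum fun D _ => ?_
    exact ((card_tup_le F m _).2).trans (le_of_eq (by rw [Nat.card_eq_fintype_card]))

/-- The bound for the constrained tuples, times `q - 1`. -/
def bnd (Q m : ℕ) : ℕ :=
  cQ Q m m + ∑ s ∈ Finset.Ico 1 (min m (Q - 1)), ((Q - 1) + ∑ D ∈ Finset.Ico 2 (m / (s + 1) + 1), cQ Q m (m - s * D))

theorem card_tupConst_le (m : ℕ) (hm : 1 ≤ m) (ρ : F) :
    (q - 1) * Nat.card {u : Tup F m m // tupConst u = ρ} ≤ bnd q m := by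
  classical
  haveI := fun J m => finite_tup (F := F) J m
  haveI : Fintype (Tup F m m) := Fintype.ofFinite _
  have hex : ∀ f : Tup F m m, (Finset.univ.filter fun j : Fin m => (f.1 j).1 ≠ 1).Nonempty := by
    intro f
    by_contra h
    rw [Finset.not_nonempty_iff_eq_empty, Finset.filter_eq_empty_iff] at h
    have hz := f.2
    rw [Finset.sum_eq_zero fun j _ => by rw [not_not.1 (h (Finset.mem_univ j)), natDegree_one, mul_zero]] at hz
    omega
  let first : Tup F m m → Fin m := fun f => (Finset.univ.filter fun j : Fin m => (f.1 j).1 ≠ 1).min' (hex f)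
  have hfirst : ∀ f : Tup F m m, (f.1 (first f)).1 ≠ 1 := fun f =>
    (Finset.mem_filter.1 (Finset.min'_mem _ (hex f))).2
  have hbefore : ∀ (f : Tup F m m) (i : Fin m), i < first f → (f.1 i).1 = 1 := fun f i hi => by
    by_contra h
    exact absurd (Finset.min'_le _ i (Finset.mem_filter.2 ⟨Finset.mem_univ _, h⟩)) (not_le.2 hi)
  have hdeg : ∀ f : Tup F m m, 1 ≤ (f.1 (first f)).1.natDegree := fun f => by
    by_contra h
    exact hfirst f ((goodPoly_eq_one_iff _).2 (by omega))
  let chg : Tup F m m → Fˣ → GoodPoly F := fun f a =>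
    ⟨(f.1 (first f)).1 + C ((a : F) - (f.1 (first f)).1.coeff 0), by
      refine (f.1 (first f)).2.1.add_of_left (lt_of_le_of_lt degree_C_le ?_)
      rw [degree_eq_natDegree (f.1 (first f)).2.1.ne_zero]
      exact_mod_cast hdeg f, by simp⟩
  have hchgdeg : ∀ f a, (chg f a).1.natDegree = (f.1 (first f)).1.natDegree := fun f a => natDegree_add_C
  let mv : Tup F m m × Fˣ → Tup F m m := fun p =>
    ⟨Function.update p.1.1 (first p.1) (chg p.1 p.2), by
      refine Eq.trans (Finset.sum_congr rfl fun j _ => ?_) p.1.2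
      rcases eq_or_ne j (first p.1) with rfl | hj
      · rw [Function.update_self, hchgdeg]
      · rw [Function.update_of_ne hj]⟩
  have hmv : ∀ p, first (mv p) = first p.1 := by
    intro p
    refine le_antisymm (Finset.min'_le _ _ (Finset.mem_filter.2 ⟨Finset.mem_univ _, ?_⟩)) (not_lt.1 fun hlt => ?_)
    · show (Function.update p.1.1 (first p.1) (chg p.1 p.2) (first p.1)).1 ≠ 1
      rw [Function.update_self]
      intro h
      have := hchgdeg p.1 p.2
      rw [h, natDegree_one] at this
      have := hdeg p.1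
      omega
    · apply hfirst (mv p)
      show (Function.update p.1.1 (first p.1) (chg p.1 p.2) (first (mv p))).1 = 1
      rw [Function.update_of_ne (ne_of_lt hlt)]
      exact hbefore p.1 _ hlt
  let w : Tup F m m → ℕ := fun y => min ((first y : ℕ) + 1) (q - 1)
  set S0 : Finset (Tup F m m × Fˣ) := (Finset.univ.filter fun f => tupConst f = ρ) ×ˢ Finset.univ
  have hS0 : (q - 1) * Nat.card {u : Tup F m m // tupConst u = ρ} = S0.card := by
    rw [Finset.card_product, Finset.card_univ, Fintype.card_units, Nat.card_eq_fintype_card,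
      Fintype.card_subtype, mul_comm]
  have hfib : ∀ y, (S0.filter fun p => mv p = y).card ≤ w y := by
    intro y
    set R := ∏ j ∈ Finset.univ.erase (first y), (y.1 j).1.coeff 0 ^ ((j : ℕ) + 1)
    have hR : R ≠ 0 := Finset.prod_ne_zero_iff.2 fun j _ => pow_ne_zero _ (y.1 j).2.2
    have hmap : ∀ p ∈ S0.filter fun p => mv p = y,
        first p.1 = first y ∧ (p.1.1 (first y)).1.coeff 0 ^ ((first y : ℕ) + 1) = ρ / R ∧
          (∀ j, j ≠ first y → p.1.1 j = y.1 j) ∧
          (y.1 (first y)).1 = (p.1.1 (first y)).1 + C ((p.2 : F) - (p.1.1 (first y)).1.coeff 0) := by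
      intro p hp
      obtain ⟨hp0, rfl⟩ := Finset.mem_filter.1 hp
      have hconst := (Finset.mem_filter.1 (Finset.mem_product.1 hp0).1).2
      have hoth : ∀ j, j ≠ first p.1 → p.1.1 j = (mv p).1 j := fun j hj =>
        (Function.update_of_ne hj _ _).symm
      refine ⟨(hmv p).symm, ?_, ?_, ?_⟩
      · rw [eq_div_iff hR, ← hconst]
        unfold tupConst
        rw [← Finset.mul_prod_erase Finset.univ _ (Finset.mem_univ (first (mv p)))]
        congr 1
        exact Finset.prod_congr rfl fun j hj => by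
          rw [hoth j (by rw [← hmv p]; exact Finset.ne_of_mem_erase hj)]
      · intro j hj
        exact hoth j (by rw [← hmv p]; exact hj)
      · rw [hmv p]
        show (Function.update p.1.1 (first p.1) (chg p.1 p.2) (first p.1)).1 = _
        rw [Function.update_self]
    have hinj : Set.InjOn (fun p : Tup F m m × Fˣ => (p.1.1 (first y)).1.coeff 0)
        (S0.filter fun p => mv p = y) := by
      intro p hp p' hp' h
      obtain ⟨-, -, ho, he⟩ := hmap p hp
      obtain ⟨-, -, ho', he'⟩ := hmap p' hp'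
      simp only at h
      have ha : (p.2 : F) = p'.2 := by
        have e := congrArg (fun r : F[X] => r.coeff 0) (he.symm.trans he')
        simpa using e
      have hf : (p.1.1 (first y)).1 = (p'.1.1 (first y)).1 := by
        have e := he.symm.trans he'
        rw [ha, h] at e
        exact add_right_cancel e
      refine Prod.ext (Subtype.ext (funext fun j => ?_)) (Units.ext ha)
      rcases eq_or_ne j (first y) with rfl | hj
      · exact Subtype.ext hf
      · rw [ho j hj, ho' j hj]
    rw [← Finset.card_image_of_injOn hinj]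
    refine le_min ?_ ?_
    · refine le_trans (Finset.card_le_card (t := (nthRoots ((first y : ℕ) + 1) (ρ / R)).toFinset) fun c hc => ?_)
        ((Multiset.toFinset_card_le _).trans (card_nthRoots _ _))
      obtain ⟨p, hp, rfl⟩ := Finset.mem_image.1 hc
      rw [Multiset.mem_toFinset, mem_nthRoots (by omega)]
      exact (hmap p hp).2.1
    · refine le_trans (Finset.card_le_card (t := Finset.univ.erase (0 : F)) fun c hc => ?_) (by simp)
      obtain ⟨p, hp, rfl⟩ := Finset.mem_image.1 hc
      exact Finset.mem_erase.2 ⟨(p.1.1 (first y)).2.2, Finset.mem_univ _⟩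
  rw [hS0, Finset.card_eq_sum_card_fiberwise (f := mv) (t := Finset.univ) (fun _ _ => Finset.mem_univ _)]
  refine (Finset.sum_le_sum fun y _ => hfib y).trans ?_
  have hw : ∀ y, w y = ∑ s ∈ Finset.range (min m (q - 1)), if s ≤ (first y : ℕ) then 1 else 0 := by
    intro y
    rw [Finset.sum_boole, Nat.cast_id]
    rw [show (Finset.range (min m (q - 1))).filter (fun s => s ≤ (first y : ℕ)) =
      Finset.range (w y) from ?_, Finset.card_range]
    ext s
    simp only [Finset.mem_filter, Finset.mem_range, w]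
    have := (first y).isLt
    omega
  simp only [hw]
  rw [Finset.sum_comm, bnd]
  have hq : 1 ≤ q - 1 := by have := Fintype.one_lt_card (α := F); omega
  rw [Finset.range_eq_Ico, Finset.sum_eq_sum_Ico_succ_bot (by omega)]
  refine add_le_add ?_ (Finset.sum_le_sum fun s hs => ?_)
  · simp only [Nat.zero_le, if_true, Finset.sum_const, smul_eq_mul, mul_one, Finset.card_univ]
    rw [← Nat.card_eq_fintype_card]
    exact (card_tup_le F m m).2.trans (le_of_eq (by rw [Nat.card_eq_fintype_card]))
  · have h1 : 1 ≤ s := by simp only [Finset.mem_Ico] at hs; omega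
    refine le_trans (le_of_eq ?_) (card_ge_le m s h1)
    rw [Finset.sum_boole, Nat.cast_id, Nat.card_eq_fintype_card, Fintype.card_subtype]
    congr 1
    ext y
    simp only [Finset.mem_filter, Finset.mem_univ, true_and]
    constructor
    · intro h i hi
      exact hbefore y i (Fin.lt_def.2 (lt_of_lt_of_le hi h))
    · intro h
      by_contra hlt
      exact hfirst y (h (first y) (by omega))

end Cfsg.Agent.Spec.SLClass
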