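import Mathlib

/-!
Determinants of multiplication maps on `F[X] ⧸ (P ^ e)` and on finite products.
-/

set_option autoImplicit false

namespace Cfsg.Agent.Spec.SLClass

open Polynomial Module

variable {F : Type*} [Field F]

theorem det_blockDiagonal_sigma {ι : Type*} [Fintype ι] [DecidableEq ι] {κ : ι → Type*} [∀ i, Fintype (κ i)]
    [∀ i, DecidableEq (κ i)] (M : ∀ i, Matrix (κ i) (κ i) F) :
    (Matrix.blockDiagonal' M).det = ∏ i, (M i).det := by
  letI : LinearOrder ι := LinearOrder.lift' (Fintype.equivFin ι) (Equiv.injective _)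
  have ht : (Matrix.blockDiagonal' M).BlockTriangular Sigma.fst := by
    rintro ⟨i, a⟩ ⟨j, c⟩ hij
    exact Matrix.blockDiagonal'_apply_ne _ _ _ (ne_of_gt hij)
  rw [ht.det_fintype]
  refine Finset.prod_congr rfl fun i _ => ?_
  let e : κ i ≃ {a : Σ j, κ j // a.1 = i} := (Equiv.sigmaSubtype i).symm
  rw [← Matrix.det_submatrix_equiv_self e]
  congr 1
  ext a c
  exact Matrix.blockDiagonal'_apply_eq M i a c

/-- The determinant of a diagonal map of a finite product. -/
theorem det_piMap {ι : Type*} [Fintype ι] {M : ι → Type*} [∀ i, AddCommGroup (M i)]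
    [∀ i, Module F (M i)] [∀ i, Module.Finite F (M i)] (f : ∀ i, M i →ₗ[F] M i) :
    LinearMap.det (LinearMap.pi fun i => (f i).comp (LinearMap.proj i)) = ∏ i, LinearMap.det (f i) := by
  classical
  let b : ∀ i, Basis (Fin (finrank F (M i))) F (M i) := fun i => Module.finBasis F (M i)
  have h : LinearMap.toMatrix (Pi.basis b) (Pi.basis b) (LinearMap.pi fun i => (f i).comp (LinearMap.proj i)) =
      Matrix.blockDiagonal' fun i => LinearMap.toMatrix (b i) (b i) (f i) := by
    ext ⟨i, a⟩ ⟨j, c⟩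
    rw [LinearMap.toMatrix_apply, Pi.basis_repr, Pi.basis_apply]
    simp only [LinearMap.pi_apply, LinearMap.comp_apply, LinearMap.proj_apply]
    by_cases hij : i = j
    · subst hij
      rw [Matrix.blockDiagonal'_apply_eq, Pi.single_eq_same, LinearMap.toMatrix_apply]
    · rw [Matrix.blockDiagonal'_apply_ne _ _ _ hij, Pi.single_eq_of_ne hij, map_zero, map_zero, Finsupp.coe_zero,
        Pi.zero_apply]
  rw [← LinearMap.det_toMatrix (Pi.basis b), h, det_blockDiagonal_sigma]
  exact Finset.prod_congr rfl fun i _ => LinearMap.det_toMatrix (b i) (f i)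

/-- Multiplication by a polynomial on `F[X] ⧸ I`. -/
noncomputable def mulMap (I : Ideal F[X]) (w : F[X]) : (F[X] ⧸ I) →ₗ[F] F[X] ⧸ I :=
  LinearMap.mulLeft F (Ideal.Quotient.mk I w)

theorem mulMap_apply (I : Ideal F[X]) (w a : F[X]) :
    mulMap I w (Ideal.Quotient.mk I a) = Ideal.Quotient.mk I (w * a) := by
  rw [mulMap, LinearMap.mulLeft_apply, ← map_mul]

/-- Determinants along a short exact sequence. -/
theorem det_of_exact {A B C : Type*} [AddCommGroup A] [AddCommGroup B] [AddCommGroup C] [Module F A]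
    [Module F B] [Module F C] [Module.Finite F B] (μ : A →ₗ[F] B) (π : B →ₗ[F] C)
    (hμ : Function.Injective μ) (hπ : Function.Surjective π) (hex : LinearMap.range μ = LinearMap.ker π)
    (f₀ : A →ₗ[F] A) (f : B →ₗ[F] B) (f₁ : C →ₗ[F] C) (h₀ : ∀ a, f (μ a) = μ (f₀ a))
    (h₁ : ∀ b, π (f b) = f₁ (π b)) :
    LinearMap.det f = LinearMap.det f₀ * LinearMap.det f₁ := by
  have hW : LinearMap.ker π ≤ (LinearMap.ker π).comap f := fun x hx => by
    rw [Submodule.mem_comap, LinearMap.mem_ker, h₁, LinearMap.mem_ker.1 hx, map_zero]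
  rw [LinearMap.det_eq_det_mul_det (LinearMap.ker π) f hW]
  congr 1
  · let E : A ≃ₗ[F] LinearMap.ker π := (LinearEquiv.ofInjective μ hμ).trans (LinearEquiv.ofEq _ _ hex)
    have h : f.restrict hW = E.toLinearMap ∘ₗ f₀ ∘ₗ E.symm.toLinearMap := by
      rw [← LinearMap.comp_assoc, LinearEquiv.eq_comp_toLinearMap_symm]
      exact LinearMap.ext fun a => Subtype.ext (h₀ a)
    rw [h, LinearMap.det_conj]
  · let E : (B ⧸ LinearMap.ker π) ≃ₗ[F] C := π.quotKerEquivOfSurjective hπ
    have h : f₁ = E.toLinearMap ∘ₗ ((LinearMap.ker π).mapQ _ f hW) ∘ₗ E.symm.toLinearMap := by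
      rw [← LinearMap.comp_assoc, LinearEquiv.eq_comp_toLinearMap_symm]
      refine Submodule.linearMap_qext _ (LinearMap.ext fun b => ?_)
      exact (h₁ b).symm
    rw [h, LinearMap.det_conj]

/-- The determinant of multiplication by `w` on `F[X] ⧸ (P ^ e)`. -/
theorem det_mulMap_pow (P : F[X]) (hP : P.Monic) (w : F[X]) : ∀ e : ℕ,
    LinearMap.det (mulMap (Ideal.span {P ^ e}) w) = LinearMap.det (mulMap (Ideal.span {P}) w) ^ e := by
  intro e
  induction e with
  | zero =>
    haveI : Subsingleton (F[X] ⧸ Ideal.span {P ^ 0}) := by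
      rw [Submodule.Quotient.subsingleton_iff, pow_zero, Ideal.span_singleton_one]
    rw [Subsingleton.elim (mulMap (Ideal.span {P ^ 0}) w) LinearMap.id, LinearMap.det_id, pow_zero]
  | succ e ih =>
    haveI := (hP.pow (e + 1)).finite_quotient
    haveI := (hP.pow e).finite_quotient
    haveI := hP.finite_quotient
    have hle : Ideal.span {P ^ (e + 1)} ≤ Ideal.span {P} :=
      Ideal.span_singleton_le_span_singleton.2 (dvd_pow_self P (by omega))
    let π : (F[X] ⧸ Ideal.span {P ^ (e + 1)}) →ₗ[F] F[X] ⧸ Ideal.span {P} :=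
      (Ideal.Quotient.factorₐ F hle).toLinearMap
    have hπ : ∀ a, π (Ideal.Quotient.mk _ a) = Ideal.Quotient.mk _ a := fun a => rfl
    let μ : (F[X] ⧸ Ideal.span {P ^ e}) →ₗ[F] F[X] ⧸ Ideal.span {P ^ (e + 1)} :=
      (Submodule.mapQ (Ideal.span {P ^ e}) (Ideal.span {P ^ (e + 1)}) (LinearMap.mulLeft F[X] P) (by
        intro a ha
        rw [Submodule.mem_comap, LinearMap.mulLeft_apply, Ideal.mem_span_singleton, pow_succ']
        exact mul_dvd_mul_left P (Ideal.mem_span_singleton.1 ha))).restrictScalars F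
    have hμ : ∀ a, μ (Ideal.Quotient.mk _ a) = Ideal.Quotient.mk _ (P * a) := fun a => rfl
    have hμinj : Function.Injective μ := by
      rw [← LinearMap.ker_eq_bot, LinearMap.ker_eq_bot']
      intro x hx
      obtain ⟨a, rfl⟩ := Ideal.Quotient.mk_surjective x
      rw [hμ, Ideal.Quotient.eq_zero_iff_mem, Ideal.mem_span_singleton, pow_succ'] at hx
      rw [Ideal.Quotient.eq_zero_iff_mem, Ideal.mem_span_singleton]
      exact (mul_dvd_mul_iff_left hP.ne_zero).1 hx
    have hker : LinearMap.range μ = LinearMap.ker π := by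
      ext x
      obtain ⟨a, rfl⟩ := Ideal.Quotient.mk_surjective x
      rw [LinearMap.mem_ker, hπ, Ideal.Quotient.eq_zero_iff_mem, Ideal.mem_span_singleton]
      constructor
      · rintro ⟨y, hy⟩
        obtain ⟨b, rfl⟩ := Ideal.Quotient.mk_surjective y
        rw [hμ, Ideal.Quotient.eq, Ideal.mem_span_singleton] at hy
        have h1 : P ∣ P * b - a := (dvd_pow_self P (by omega : e + 1 ≠ 0)).trans hy
        exact (dvd_sub_right (dvd_mul_right P b)).1 h1
      · rintro ⟨b, rfl⟩
        exact ⟨Ideal.Quotient.mk _ b, hμ b⟩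
    have hsurj : Function.Surjective π := fun y => by
      obtain ⟨a, rfl⟩ := Ideal.Quotient.mk_surjective y
      exact ⟨_, hπ a⟩
    rw [det_of_exact μ π hμinj hsurj hker (mulMap (Ideal.span {P ^ e}) w) (mulMap (Ideal.span {P ^ (e + 1)}) w)
      (mulMap (Ideal.span {P}) w), ih]
    · exact (pow_succ _ e).symm
    · intro x
      obtain ⟨a, rfl⟩ := Ideal.Quotient.mk_surjective x
      rw [hμ, mulMap_apply, mulMap_apply, hμ, mul_left_comm]
    · intro x
      obtain ⟨a, rfl⟩ := Ideal.Quotient.mk_surjective x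
      rw [mulMap_apply, hπ, hπ, mulMap_apply]

/-- The determinant on the residue field is the norm. -/
theorem det_mulMap_irreducible (P : F[X]) [Fact (Irreducible P)] (w : F[X]) :
    LinearMap.det (mulMap (Ideal.span {P}) w) = Algebra.norm F (AdjoinRoot.mk P w) := by
  rw [Algebra.norm_apply]
  rfl

theorem norm_root (P : F[X]) [Fact (Irreducible P)] (hP : P.Monic) :
    Algebra.norm F (AdjoinRoot.root P) = (-1) ^ P.natDegree * P.coeff 0 := by
  have h := Algebra.PowerBasis.norm_gen_eq_coeff_zero_minpoly (AdjoinRoot.powerBasis hP.ne_zero)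
  rw [AdjoinRoot.minpoly_powerBasis_gen_of_monic hP] at h
  simpa using h

/-- The determinant of multiplication by `X` on `F[X] ⧸ (P ^ e)`. -/
theorem det_mulMap_X (P : F[X]) (hirr : Irreducible P) (hP : P.Monic) (e : ℕ) :
    LinearMap.det (mulMap (Ideal.span {P ^ e}) X) = ((-1) ^ P.natDegree * P.coeff 0) ^ e := by
  haveI := Fact.mk hirr
  rw [det_mulMap_pow P hP, det_mulMap_irreducible, AdjoinRoot.mk_X, norm_root P hP]

/-- Every nonzero scalar has some multiplication of determinant its `e`-th power. -/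
theorem exists_det_eq_pow [Finite F] (P : F[X]) (hirr : Irreducible P) (hP : P.Monic) (e : ℕ) (x : F) :
    ∃ w : F[X], LinearMap.det (mulMap (Ideal.span {P ^ e}) w) = x ^ e := by
  haveI := Fact.mk hirr
  haveI : Module.Finite F (AdjoinRoot P) := (AdjoinRoot.powerBasis hP.ne_zero).finite
  haveI : Finite (AdjoinRoot P) := Module.finite_of_finite F
  obtain ⟨y, hy⟩ := FiniteField.norm_surjective F (AdjoinRoot P) x
  obtain ⟨w, rfl⟩ := AdjoinRoot.mk_surjective y
  exact ⟨w, by rw [det_mulMap_pow P hP, det_mulMap_irreducible, hy]⟩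

end Cfsg.Agent.Spec.SLClass
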