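import Cfsg.Agent.GLClassCount.Module
import Cfsg.Agent.Spec.SLClass.Det

/-!
`SL`-classes inside `GL`-classes: splitting is bounded by the gcd of the exponents of the
elementary divisors and `q - 1`.
-/

set_option autoImplicit false

namespace Cfsg.Agent.Spec.SLClass

open Polynomial Module GLClassCount

universe u

variable {F : Type u} [Field F]

/-- The weighted product of constant terms of a tuple. -/
noncomputable def tupConst {J m : ℕ} (f : Tup F J m) : F :=
  ∏ j : Fin J, (f.1 j).1.coeff 0 ^ ((j : ℕ) + 1)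

/-- The subgroup of determinants of the centraliser. -/
noncomputable def detCent {n : ℕ} (g : GL (Fin n) F) : Subgroup Fˣ :=
  (Subgroup.centralizer {g}).map Matrix.GeneralLinearGroup.det

variable [Fintype F]

theorem det_of_data {n : ℕ} (g : GL (Fin n) F) {ι : Type u} [Fintype ι] (P : ι → F[X]) (e : ι → ℕ)
    (hP : ∀ i, Irreducible (P i) ∧ (P i).Monic)
    (Φ : AEval' (Matrix.toLin' (g : Matrix (Fin n) (Fin n) F)) ≃ₗ[F[X]]
      Π i, F[X] ⧸ Ideal.span {P i ^ e i}) :
    (g : Matrix (Fin n) (Fin n) F).det = ∏ i, ((-1) ^ (P i).natDegree * (P i).coeff 0) ^ e i ∧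
      ∀ (w : ι → F[X]), (∀ i, LinearMap.det (mulMap (Ideal.span {P i ^ e i}) (w i)) ≠ 0) →
        ∃ S : GL (Fin n) F, S ∈ Subgroup.centralizer {g} ∧
          (S : Matrix (Fin n) (Fin n) F).det = ∏ i, LinearMap.det (mulMap (Ideal.span {P i ^ e i}) (w i)) := by
  haveI : ∀ i, Module.Finite F (F[X] ⧸ Ideal.span {P i ^ e i}) := fun i =>
    ((hP i).2.pow _).finite_quotient
  set φ := Matrix.toLin' (g : Matrix (Fin n) (Fin n) F)
  let E : (Fin n → F) ≃ₗ[F] Π i, F[X] ⧸ Ideal.span {P i ^ e i} :=
    (AEval'.of φ).trans (Φ.restrictScalars F)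
  let L : (ι → F[X]) → ((Π i, F[X] ⧸ Ideal.span {P i ^ e i}) →ₗ[F] Π i, F[X] ⧸ Ideal.span {P i ^ e i}) :=
    fun w => LinearMap.pi fun i => (mulMap (Ideal.span {P i ^ e i}) (w i)).comp (LinearMap.proj i)
  have hL : ∀ w (v : Π i, F[X] ⧸ Ideal.span {P i ^ e i}), L w v = fun i => w i • v i := fun w v => by
    funext i
    obtain ⟨a, ha⟩ := Ideal.Quotient.mk_surjective (v i)
    show mulMap _ (w i) (v i) = w i • v i
    rw [← ha, mulMap_apply]
    rfl
  have hX : ∀ v, E (φ v) = L (fun _ => X) (E v) := fun v => by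
    rw [hL]
    show Φ (AEval'.of φ (φ v)) = fun i => (X : F[X]) • Φ (AEval'.of φ v) i
    rw [← AEval'.X_smul_of, map_smul]
    rfl
  have hφ : φ = E.symm.toLinearMap ∘ₗ L (fun _ => X) ∘ₗ E.symm.symm.toLinearMap :=
    LinearMap.ext fun v => by
      show φ v = E.symm (L (fun _ => X) (E v))
      rw [← hX, E.symm_apply_apply]
  refine ⟨?_, fun w hw => ?_⟩
  · rw [← LinearMap.det_toLin', show Matrix.toLin' (g : Matrix (Fin n) (Fin n) F) = φ from rfl, hφ,
      LinearMap.det_conj, det_piMap]
    exact Finset.prod_congr rfl fun i _ => det_mulMap_X (P i) (hP i).1 (hP i).2 (e i)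
  · set M := E.symm.toLinearMap ∘ₗ L w ∘ₗ E.symm.symm.toLinearMap
    have hdetM : LinearMap.det M = ∏ i, LinearMap.det (mulMap (Ideal.span {P i ^ e i}) (w i)) := by
      rw [LinearMap.det_conj, det_piMap]
    have hne : (LinearMap.toMatrix' M).det ≠ 0 := by
      rw [LinearMap.det_toMatrix', hdetM]
      exact Finset.prod_ne_zero_iff.2 fun i _ => hw i
    refine ⟨Matrix.GeneralLinearGroup.mkOfDetNeZero _ hne, Subgroup.mem_centralizer_singleton_iff.2 ?_, ?_⟩
    · apply Units.ext
      apply Matrix.toLin'.injective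
      rw [Units.val_mul, Units.val_mul, Matrix.toLin'_mul, Matrix.toLin'_mul]
      show Matrix.toLin' (LinearMap.toMatrix' M) ∘ₗ φ = φ ∘ₗ Matrix.toLin' (LinearMap.toMatrix' M)
      rw [Matrix.toLin'_toMatrix', hφ]
      refine LinearMap.ext fun v => ?_
      show E.symm (L w (E (E.symm (L (fun _ => X) (E v))))) = E.symm (L (fun _ => X) (E (E.symm (L w (E v)))))
      rw [E.apply_symm_apply, E.apply_symm_apply, hL, hL, hL, hL]
      congr 1
      funext i
      exact smul_comm _ _ _
    · show (LinearMap.toMatrix' M).det = _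
      rw [LinearMap.det_toMatrix', hdetM]

theorem exists_cent_det {n : ℕ} (g : GL (Fin n) F) {ι : Type u} [Fintype ι] (P : ι → F[X]) (e : ι → ℕ)
    (hP : ∀ i, Irreducible (P i) ∧ (P i).Monic)
    (Φ : AEval' (Matrix.toLin' (g : Matrix (Fin n) (Fin n) F)) ≃ₗ[F[X]]
      Π i, F[X] ⧸ Ideal.span {P i ^ e i}) (i : ι) (x : Fˣ) : x ^ e i ∈ detCent g := by
  classical
  obtain ⟨w, hw⟩ := exists_det_eq_pow (P i) (hP i).1 (hP i).2 (e i) (x : F)
  have hone : ∀ j, LinearMap.det (mulMap (Ideal.span {P j ^ e j}) 1) = 1 := fun j => by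
    rw [show mulMap (Ideal.span {P j ^ e j}) 1 = LinearMap.id from LinearMap.ext fun v => by
      obtain ⟨a, rfl⟩ := Ideal.Quotient.mk_surjective v
      rw [mulMap_apply, one_mul, LinearMap.id_apply], LinearMap.det_id]
  have hfac : ∀ j, LinearMap.det (mulMap (Ideal.span {P j ^ e j}) (Function.update (fun _ => (1 : F[X])) i w j)) =
      if j = i then (x : F) ^ e i else 1 := fun j => by
    rcases eq_or_ne j i with rfl | hj
    · rw [Function.update_self, if_pos rfl, hw]
    · rw [Function.update_of_ne hj, if_neg hj, hone]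
  obtain ⟨S, hS, hdet⟩ := (det_of_data g P e hP Φ).2 (Function.update (fun _ => (1 : F[X])) i w) fun j => by
    rw [hfac]; split_ifs <;> simp
  refine ⟨S, hS, Units.ext ?_⟩
  rw [Matrix.GeneralLinearGroup.val_det_apply, hdet, Finset.prod_congr rfl (fun j _ => hfac j),
    Finset.prod_ite_eq' , if_pos (Finset.mem_univ i), Units.val_pow_eq_pow_val]

/-- Index of a subgroup of `Fˣ` containing all `e i`-th powers. -/
theorem index_dvd_gcd {ι : Type*} [Fintype ι] (e : ι → ℕ) (D : Subgroup Fˣ)
    (h : ∀ i, ∀ x : Fˣ, x ^ e i ∈ D) :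
    D.index ∣ Nat.gcd (Fintype.card F - 1) (Finset.univ.gcd e) := by
  classical
  obtain ⟨g, hg⟩ := IsCyclic.exists_generator (α := Fˣ)
  have hgen : ∀ y : Fˣ ⧸ D, y ∈ Subgroup.zpowers (QuotientGroup.mk' D g) := fun y => by
    obtain ⟨x, rfl⟩ := QuotientGroup.mk'_surjective D y
    obtain ⟨k, rfl⟩ := Subgroup.mem_zpowers_iff.1 (hg x)
    exact ⟨k, (map_zpow (QuotientGroup.mk' D) g k).symm⟩
  rw [Subgroup.index_eq_card, ← orderOf_eq_card_of_forall_mem_zpowers hgen]
  refine Nat.dvd_gcd ?_ (Finset.dvd_gcd fun i _ => ?_)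
  · rw [← Fintype.card_units F]
    exact (orderOf_map_dvd _ g).trans orderOf_dvd_card
  · rw [orderOf_dvd_iff_pow_eq_one, ← map_pow]
    exact (QuotientGroup.eq_one_iff _).2 (h i g)

/-- Tuples with all entries at positions divisible by `d`. -/
def SuppDvd {J m : ℕ} (d : ℕ) (f : Tup F J m) : Prop := ∀ j : Fin J, (f.1 j).1 ≠ 1 → d ∣ (j : ℕ) + 1

/-- Classes map injectively to tuples recording the determinant and the divisibility bound on the
index of the determinants of the centraliser. -/
theorem exists_tup_map (n : ℕ) :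
    ∃ T : ConjClasses (GL (Fin n) F) → Tup F n n, Function.Injective T ∧
      ∀ c, tupConst (T c) = (-1) ^ n * (c.out : Matrix (Fin n) (Fin n) F).det ∧
        (∃ E : ℕ, (detCent c.out).index ∣ E ∧ E ∣ Fintype.card F - 1 ∧ E ∣ n ∧
          ∀ d, d ∣ E → SuppDvd d (T c)) ∧
        ∃ (ι : Type u) (_ : Fintype ι) (P : ι → F[X]) (e : ι → ℕ), (∀ i, Irreducible (P i) ∧ (P i).Monic) ∧
          Nonempty (AEval' (Matrix.toLin' (c.out : Matrix (Fin n) (Fin n) F)) ≃ₗ[F[X]]
            Π i, F[X] ⧸ Ideal.span {P i ^ e i}) ∧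
          ∀ j : Fin n, ((T c).1 j).1 = ∏ i ∈ Finset.univ.filter (fun i => e i = (j : ℕ) + 1), P i := by
  classical
  choose ι hι P e hP h0 hdeg hequiv using fun c : ConjClasses (GL (Fin n) F) => exists_data c.out
  have hle : ∀ c i, e c i ≤ n := by
    intro c i
    have := Finset.single_le_sum (f := fun i => e c i * (P c i).natDegree) (fun _ _ => Nat.zero_le _) (Finset.mem_univ i)
    rw [hdeg c] at this
    have hd := Irreducible.natDegree_pos (hP c i).1
    exact le_trans (Nat.le_mul_of_pos_right _ hd) this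
  let F₀ : ConjClasses (GL (Fin n) F) → Tup F n n := fun c =>
    ⟨fun j => ⟨∏ i ∈ Finset.univ.filter (fun i => e c i = j.val + 1), P c i,
        monic_prod_of_monic _ _ fun i _ => (hP c i).2, by
          rw [coeff_zero_prod, Finset.prod_ne_zero_iff]
          intro i hi
          exact h0 c i (by simp at hi; omega)⟩, by
      show ∑ j : Fin n, ((j : ℕ) + 1) * (∏ i ∈ Finset.univ.filter (fun i => e c i = j.val + 1), P c i).natDegree = n
      simp only [natDegree_prod_of_monic _ _ fun i _ => (hP c i).2, Finset.mul_sum, Finset.sum_filter, mul_ite, mul_zero]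
      rw [Finset.sum_comm]
      refine Eq.trans (Finset.sum_congr rfl fun i _ => ?_) (hdeg c)
      rcases Nat.eq_zero_or_pos (e c i) with h | h
      · rw [h, zero_mul]
        exact Finset.sum_eq_zero fun j _ => if_neg (by omega)
      · rw [Finset.sum_eq_single (⟨e c i - 1, by have := hle c i; omega⟩ : Fin n)
          (fun j _ hj => if_neg (fun hh => hj (Fin.ext (by simp; omega)))) (by simp)]
        rw [if_pos (by simp; omega)]
        simp only
        rw [Nat.sub_add_cancel h]⟩
  refine ⟨F₀, fun c c' hc => ?_, fun c => ⟨?_, ?_, ι c, hι c, P c, e c, hP c, hequiv c, fun _ => rfl⟩⟩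
  ·
    have hfib : ∀ x : F[X] × ℕ, 1 ≤ x.2 →
        Nat.card {i // (P c i, e c i) = x} = Nat.card {k // (P c' k, e c' k) = x} := by
      rintro ⟨Q, k⟩ hk
      rcases lt_or_ge n k with hn | hn
      · haveI : IsEmpty {i // (P c i, e c i) = (Q, k)} := ⟨fun i => by
          have := hle c i.1; have := congrArg Prod.snd i.2; simp at this; omega⟩
        haveI : IsEmpty {i // (P c' i, e c' i) = (Q, k)} := ⟨fun i => by
          have := hle c' i.1; have := congrArg Prod.snd i.2; simp at this; omega⟩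
        rw [Nat.card_of_isEmpty, Nat.card_of_isEmpty]
      · have hj := congrArg (fun f : Tup F n n => (f.1 ⟨k - 1, by omega⟩).1) hc
        simp only [F₀, show k - 1 + 1 = k by omega] at hj
        rw [Finset.prod_eq_multiset_prod, Finset.prod_eq_multiset_prod] at hj
        have hm := multiset_eq_of_prod_eq
          (fun x hx => by obtain ⟨i, -, rfl⟩ := Multiset.mem_map.1 hx; exact hP c i)
          (fun x hx => by obtain ⟨i, -, rfl⟩ := Multiset.mem_map.1 hx; exact hP c' i) hj
        have hcnt := congrArg (Multiset.count Q) hm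
        rw [Multiset.count_map, Multiset.count_map, ← Finset.filter_val, ← Finset.filter_val,
          ← Finset.card_def, ← Finset.card_def, Finset.filter_filter, Finset.filter_filter] at hcnt
        rw [Nat.card_eq_fintype_card, Nat.card_eq_fintype_card, Fintype.card_subtype, Fintype.card_subtype]
        refine Eq.trans ?_ (hcnt.trans ?_) <;> congr 1 <;> ext i <;> simp [Prod.ext_iff] <;> tauto
    obtain ⟨Θ⟩ := pi_equiv_of_fibres (P c) (e c) (P c') (e c') hfib
    obtain ⟨Φ⟩ := hequiv c
    obtain ⟨Φ'⟩ := hequiv c'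
    let Ω := Φ.trans (Θ.trans Φ'.symm)
    set A := c.out
    set B := c'.out
    let T : (Fin n → F) ≃ₗ[F] (Fin n → F) :=
      (AEval'.of (Matrix.toLin' (A : Matrix (Fin n) (Fin n) F))).trans
        ((Ω.restrictScalars F).trans (AEval'.of (Matrix.toLin' (B : Matrix (Fin n) (Fin n) F))).symm)
    have hT : ∀ v, T (Matrix.toLin' (A : Matrix (Fin n) (Fin n) F) v) = Matrix.toLin' (B : Matrix (Fin n) (Fin n) F) (T v) := by
      intro v
      simp only [T, LinearEquiv.trans_apply, LinearEquiv.restrictScalars_apply]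
      rw [← AEval'.X_smul_of, map_smul]
      rw [show ∀ m, (AEval'.of (Matrix.toLin' (B : Matrix (Fin n) (Fin n) F))).symm ((X : F[X]) • m)
        = Matrix.toLin' (B : Matrix (Fin n) (Fin n) F) ((AEval'.of (Matrix.toLin' (B : Matrix (Fin n) (Fin n) F))).symm m) from
          fun m => AEval'.of_symm_X_smul _ m]
    let S : GL (Fin n) F :=
      ⟨LinearMap.toMatrix' T.toLinearMap, LinearMap.toMatrix' T.symm.toLinearMap,
        by rw [← LinearMap.toMatrix'_comp]; simp, by rw [← LinearMap.toMatrix'_comp]; simp⟩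
    have hS : S * A = B * S := by
      apply Units.ext
      apply Matrix.toLin'.injective
      rw [Units.val_mul, Units.val_mul, Matrix.toLin'_mul, Matrix.toLin'_mul]
      simp only [S, Matrix.toLin'_toMatrix']
      exact LinearMap.ext hT
    have hconj : IsConj A B := isConj_iff.2 ⟨S, by rw [hS, mul_inv_cancel_right]⟩
    have := ConjClasses.mk_eq_mk_iff_isConj.2 hconj
    exact (Quotient.out_eq c).symm.trans (this.trans (Quotient.out_eq c'))

  · have hd := (det_of_data c.out (P c) (e c) (hP c) (hequiv c).some).1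
    rw [hd]
    show ∏ j : Fin n, (∏ i ∈ Finset.univ.filter (fun i => e c i = j.val + 1), P c i).coeff 0 ^ ((j : ℕ) + 1) = _
    have hsign : ((-1 : F)) ^ n = ∏ i, ((-1 : F) ^ (P c i).natDegree) ^ e c i := by
      rw [← hdeg c, ← Finset.prod_pow_eq_pow_sum]
      exact Finset.prod_congr rfl fun i _ => by rw [← pow_mul, mul_comm (e c i)]
    rw [hsign, ← Finset.prod_mul_distrib]
    have hr : ∀ i, ((-1 : F) ^ (P c i).natDegree) ^ e c i * ((-1) ^ (P c i).natDegree * (P c i).coeff 0) ^ e c i =
        (P c i).coeff 0 ^ e c i := fun i => by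
      rw [← mul_pow, ← mul_assoc, ← mul_pow, neg_one_mul, neg_neg, one_pow, one_mul]
    simp only [hr, coeff_zero_prod, Finset.prod_filter, ← Finset.prod_pow, apply_ite (fun p : F[X] => p.coeff 0),
      coeff_one_zero, ite_pow, one_pow]
    rw [Finset.prod_comm]
    refine Finset.prod_congr rfl fun i _ => ?_
    rcases Nat.eq_zero_or_pos (e c i) with h | h
    · rw [h, pow_zero]
      exact Finset.prod_eq_one fun j _ => if_neg (by omega)
    · rw [Finset.prod_eq_single (⟨e c i - 1, by have := hle c i; omega⟩ : Fin n)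
        (fun j _ hj => if_neg (fun hh => hj (Fin.ext (by simp; omega)))) (by simp)]
      rw [if_pos (by simp; omega)]
      simp only
      rw [Nat.sub_add_cancel h]
  · refine ⟨Nat.gcd (Fintype.card F - 1) (Finset.univ.gcd (e c)),
      index_dvd_gcd (e c) _ (fun i x => exists_cent_det c.out (P c) (e c) (hP c) (hequiv c).some i x),
      Nat.gcd_dvd_left _ _, ?_, fun d hd j hj => ?_⟩
    · conv_rhs => rw [← hdeg c]
      exact Finset.dvd_sum fun i _ => ((Nat.gcd_dvd_right _ _).trans (Finset.gcd_dvd (Finset.mem_univ i))).mul_right _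
    · have hnon : (Finset.univ.filter (fun i => e c i = j.val + 1)).Nonempty := by
        rw [Finset.nonempty_iff_ne_empty]
        intro h
        apply hj
        show ∏ i ∈ Finset.univ.filter (fun i => e c i = j.val + 1), P c i = 1
        rw [h, Finset.prod_empty]
      obtain ⟨i, hi⟩ := hnon
      rw [← (Finset.mem_filter.1 hi).2]
      exact hd.trans ((Nat.gcd_dvd_right _ _).trans (Finset.gcd_dvd (Finset.mem_univ i)))

end Cfsg.Agent.Spec.SLClass
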